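import Cfsg.Agent.H984.On.Real
import Cfsg.Agent.GpSp.Iso

/-!
# The dimension of the moved space of an element of order `p` (helper984)

`mov_dim` : the space moved by an isometry `g`, `g ^ p = 1`, has dimension `2 k`, `p ∣ q ^ (2 k) - 1`.
-/

set_option autoImplicit false
set_option linter.unusedSectionVars false

namespace Cfsg.Agent.H984.OnDim

open QuadraticMap Matrix Module Cfsg
open Cfsg.Agent.ClassicalGeometry.Reflection Cfsg.Agent.ClassicalGeometry.OrthCharTwo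
  Cfsg.Agent.ClassicalGeometry.SpinorSign Cfsg.Agent.ClassicalGeometry.OmegaIndex
  Cfsg.Agent.ClassicalGeometry.OrthDickson
open Cfsg.Agent.H507.GmnOrth Cfsg.Agent.H507.GmnOrthRows Cfsg.Agent.H984.OnSpin Cfsg.Agent.H984.OnReal
open Cfsg.Agent.H467.OddNorm

variable {ι : Type} [Fintype ι] [DecidableEq ι] {F : Type*} [Field F] {Q : QuadraticForm F (ι → F)}

theorem act_mem_mov {g : Cfsg.isometryGroup F (⇑Q)} {u : ι → F} (hu : u ∈ mov g) : act g u ∈ mov g := by
  intro y hy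
  have h1 : polar Q (act g y) (act g u) = polar Q y u := polar_act g y u
  rw [hy] at h1
  rw [h1]
  exact hu y hy

theorem act_inv_mem_mov {g : Cfsg.isometryGroup F (⇑Q)} {u : ι → F} (hu : u ∈ mov g) : act g⁻¹ u ∈ mov g := by
  intro y hy
  have h1 : polar Q (act g y) (act g (act g⁻¹ u)) = polar Q y (act g⁻¹ u) := polar_act g y _
  rw [hy, act_act_inv] at h1
  rw [← h1]
  exact hu y hy

theorem mov_fix (hQ : (polarBilin Q).Nondegenerate) {p : ℕ} (hpF : (p : F) ≠ 0) {g : Cfsg.isometryGroup F (⇑Q)}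
    (hg : g ^ p = 1) : ∀ u ∈ mov g, act g u = u → u = 0 := by
  intro u hu hgu
  apply nondeg_left Q hQ
  intro y
  obtain ⟨a, b, rfl, ha, hb⟩ := exists_decomp hpF hg y
  rw [polar_add_right, hb u hgu, polar_comm, hu a ha, add_zero]

theorem mov_nondeg (hQ : (polarBilin Q).Nondegenerate) {p : ℕ} (hpF : (p : F) ≠ 0) {g : Cfsg.isometryGroup F (⇑Q)}
    (hg : g ^ p = 1) : ∀ x ∈ mov g, (∀ y ∈ mov g, polar Q x y = 0) → x = 0 := by
  intro x hx hxy
  apply nondeg_left Q hQ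
  intro y
  obtain ⟨a, b, rfl, ha, hb⟩ := exists_decomp hpF hg y
  rw [polar_add_right, hxy b hb, polar_comm, hx a ha, add_zero]

theorem mov_ne_bot {p : ℕ} (hpF : (p : F) ≠ 0) {g : Cfsg.isometryGroup F (⇑Q)}
    (hg : g ^ p = 1) (hg1 : g ≠ 1) : mov g ≠ ⊥ := by
  intro h
  apply hg1
  apply act_ext
  intro x
  obtain ⟨a, b, rfl, ha, hb⟩ := exists_decomp hpF hg x
  have h1 : b ∈ mov g := hb
  rw [h, Submodule.mem_bot] at h1
  rw [h1, add_zero, ha, act_one]

theorem fix_add_mov (hQ : (polarBilin Q).Nondegenerate) {p : ℕ} (hpF : (p : F) ≠ 0)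
    {g : Cfsg.isometryGroup F (⇑Q)} (hg : g ^ p = 1) :
    finrank F (fixSp g) + finrank F (mov g) = Fintype.card ι := by
  have h1 : fixSp g ⊔ mov g = ⊤ := by
    rw [eq_top_iff]
    intro x _
    obtain ⟨a, b, rfl, ha, hb⟩ := exists_decomp hpF hg x
    exact Submodule.add_mem_sup ha hb
  have h2 : fixSp g ⊓ mov g = ⊥ := by
    rw [eq_bot_iff]
    rintro x ⟨hx1, hx2⟩
    exact mov_fix hQ hpF hg x hx2 hx1
  rw [← Submodule.finrank_sup_add_finrank_inf_eq, h1, h2, finrank_top, finrank_bot,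
    finrank_fintype_fun_eq_card, add_zero]

/-- **The dimension of the moved space.** -/
theorem mov_dim [Fintype F] (hQ : (polarBilin Q).Nondegenerate) {p : ℕ} (hp : p.Prime) (hp2 : p ≠ 2)
    (hpF : (p : F) ≠ 0) {g : Cfsg.isometryGroup F (⇑Q)} (hg : g ^ p = 1) :
    ∃ k, finrank F (mov g) = 2 * k ∧ p ∣ (Fintype.card F ^ k) ^ 2 - 1 := by
  classical
  have hDm : ∀ y ∈ mov g, Dl g y ∈ mov g := by
    intro y hy
    rw [Dl_apply]
    exact (mov g).sub_mem (act_mem_mov hy) (act_inv_mem_mov hy)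
  let B : LinearMap.BilinForm F (mov g) :=
    (((polarBilin Q).compl₂ (Dl g)).domRestrict₁₂ (mov g) (mov g))
  have hB : ∀ x y : mov g, B x y = polar Q (x : ι → F) (Dl g (y : ι → F)) := fun x y => rfl
  have hA : B.IsAlt := by
    intro x
    rw [hB, Dl_apply, polar_sub_right, ← polar_act_left, polar_comm Q (act g _), sub_self]
  obtain ⟨k, hk⟩ := Cfsg.Agent.GpSp.Symp.even_of_nondeg B hA (fun u hu => by
    have h1 : Dl g (u : ι → F) = 0 := by
      apply mov_nondeg hQ hpF hg _ (hDm _ u.2)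
      intro y hy
      rw [polar_Dl, ← hB u ⟨y, hy⟩, hu, neg_zero]
    rw [Dl_apply, sub_eq_zero] at h1
    have h2 : act (g ^ 2) (u : ι → F) = u := by
      rw [pow_two, act_mul, h1, act_act_inv]
    have h3 : ∀ j : ℕ, act ((g ^ 2) ^ j) (u : ι → F) = u := by
      intro j
      induction j with
      | zero => rw [pow_zero, act_one]
      | succ j ih => rw [pow_succ, act_mul, h2, ih]
    obtain ⟨j, hj⟩ := hp.odd_of_ne_two hp2
    have h4 : act g (u : ι → F) = u := by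
      have h5 : g = (g ^ 2) ^ (j + 1) := by
        rw [← pow_mul, mul_add, mul_one, show 2 * j + 2 = p + 1 by omega, pow_succ, hg, one_mul]
      exact (congrArg (fun z => act z (u : ι → F)) h5).trans (h3 _)
    exact Subtype.ext (mov_fix hQ hpF hg _ u.2 h4))
  refine ⟨k, hk, ?_⟩
  have : Fact p.Prime := ⟨hp⟩
  let f : Function.End (mov g) := fun u => ⟨act g (u : ι → F), act_mem_mov u.2⟩
  have hfk : ∀ (k : ℕ) (u : mov g), (((f ^ k) u : mov g) : ι → F) = act (g ^ k) (u : ι → F) := by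
    intro k
    induction k with
    | zero => intro u; rw [pow_zero, pow_zero, act_one]; rfl
    | succ k ih =>
      intro u
      rw [pow_succ, pow_succ, act_mul]
      exact ih (f u)
  have hf : f ^ p ^ 1 = 1 := by
    rw [pow_one]
    funext u
    apply Subtype.ext
    rw [hfk, hg, act_one]
    rfl
  have : Fintype (mov g) := Fintype.ofFinite _
  have h1 := Equiv.Perm.card_fixedPoints_modEq (α := mov g) (f := f) (p := p) (n := 1) hf
  have h2 : Fintype.card (Function.fixedPoints f) = 1 := by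
    rw [Fintype.card_eq_one_iff]
    refine ⟨⟨0, ?_⟩, ?_⟩
    · show f 0 = 0
      apply Subtype.ext
      show act g 0 = 0
      rw [act_def, Matrix.mulVec_zero]
    · rintro ⟨u, hu⟩
      apply Subtype.ext
      apply Subtype.ext
      have h3 : f u = u := hu
      exact mov_fix hQ hpF hg _ u.2 (congrArg Subtype.val h3)
  rw [h2, Module.card_eq_pow_finrank (K := F), hk] at h1
  have h3 := (Nat.modEq_iff_dvd' (Nat.one_le_pow _ _ Fintype.card_pos)).1 h1.symm
  rwa [← pow_mul, mul_comm k 2]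

/-- all elements have fixed vectors -/
theorem real_of_fixed [Fintype F] (hQ : (polarBilin Q).Nondegenerate) (hn : 4 < Fintype.card ι)
    (heven : Even (Fintype.card ι)) {p : ℕ}
    (hp : p.Prime) (hp2 : p ≠ 2) (hpF : (p : F) ≠ 0)
    (hfix : ∀ g : Cfsg.isometryGroup F ⇑Q, g ^ p = 1 → ∃ v : ι → F, v ≠ 0 ∧ act g v = v)
    (g : Cfsg.isometryGroup F ⇑Q) (hg : g ^ p = 1) :
    ∃ h ∈ Cfsg.Omega F (⇑Q), h * g * h⁻¹ = g⁻¹ := by
  obtain ⟨v, hv0, hv⟩ := hfix g hg
  refine real_fix hQ hn hp hp2 hpF hg hv0 hv fun _ => ?_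
  obtain ⟨k, hk, -⟩ := mov_dim hQ hp hp2 hpF hg
  have h1 := fix_add_mov hQ hpF hg
  have h2 : 0 < finrank F (fixSp g) := by
    rw [Module.finrank_pos_iff]
    exact ⟨⟨⟨v, hv⟩, 0, fun h => hv0 (congrArg Subtype.val h)⟩⟩
  obtain ⟨j, hj⟩ := heven
  omega

/-- the Sylow subgroups of `Ω` are cyclic if the dimension is `2 c`, `c` the order of `q²` -/
theorem cyclic_of [Fintype F] (hQ : (polarBilin Q).Nondegenerate) {p : ℕ}
    [hp : Fact p.Prime] (hp2 : p ≠ 2) (hpF : (p : F) ≠ 0) {c : ℕ}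
    (hck : ∀ k, p ∣ (Fintype.card F ^ k) ^ 2 - 1 → c ∣ k) (hcard : Fintype.card ι = 2 * c)
    (P : Subgroup (Cfsg.Omega F ⇑Q)) (hP : IsPGroup p P) : IsCyclic P := by
  have : Finite (Cfsg.isometryGroup F ⇑Q) := Subtype.finite
  by_contra hnc
  obtain ⟨a, b, -, -, hab, hap, hbp, ha1, v, hav, hbv⟩ := Cfsg.Agent.H501.RealGen.nonc
    ((Cfsg.Agent.H501.RowOmega.rho ⇑Q).comp (Cfsg.Omega F ⇑Q).subtype)
    ((Cfsg.Agent.H501.RowOmega.rho_injective ⇑Q).comp (Cfsg.Omega F ⇑Q).subtype_injective) hp2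
    (not_dvd_card hp.out hpF) hP hnc
  have ha1' : a.1 ≠ 1 := fun h => ha1 (Subtype.ext h)
  have hap' : a.1 ^ p = 1 := congrArg Subtype.val hap
  obtain ⟨k, hk, hpk⟩ := mov_dim hQ hp.out hp2 hpF hap'
  have h1 := fix_add_mov hQ hpF hap'
  have h2 := hck k hpk
  have h3 : finrank F (mov a.1) ≠ 0 := fun h => mov_ne_bot hpF hap' ha1' (Submodule.finrank_eq_zero.1 h)
  have h4 := Nat.le_of_dvd (by omega) h2
  have h5 : finrank F (fixSp a.1) = 0 := by omega
  rw [Submodule.finrank_eq_zero] at h5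
  have h6 : v ∈ fixSp a.1 := hav
  rw [h5, Submodule.mem_bot] at h6
  rw [h6, map_zero] at hbv
  exact hbv rfl

end Cfsg.Agent.H984.OnDim
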