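import Cfsg.Agent.H507.GmnOrth

/-!
# Pairs of involutions of orthogonal groups with prescribed spinor signs (helper984)

`exists_pair` : `L` a nondegenerate subspace, `φ` a linear map with `Q (φ x) = n Q x` on `L`; the isometries which are
`-1` on `L` (on `φ L`) and `1` on the orthogonal complement; their spinor signs differ by `χ(n) ^ dim L`.
-/

set_option autoImplicit false
set_option linter.unusedSectionVars false

namespace Cfsg.Agent.H984.OnSpin

open QuadraticMap Matrix Module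
open Cfsg.Agent.ClassicalGeometry.Reflection Cfsg.Agent.ClassicalGeometry.OrthCharTwo
  Cfsg.Agent.ClassicalGeometry.SpinorSign Cfsg.Agent.ClassicalGeometry.OmegaIndex
  Cfsg.Agent.ClassicalGeometry.OrthDickson
open Cfsg.Agent.H507.GmnOrth

variable {ι : Type} [Fintype ι] [DecidableEq ι] {F : Type*} [Field F] {Q : QuadraticForm F (ι → F)}

/-- `h` is `-1` on `L` and `1` on the orthogonal complement of `L` -/
structure Neg (L : Submodule F (ι → F)) (k : ℕ) (h : Cfsg.isometryGroup F (⇑Q)) : Prop where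
  neg : ∀ x ∈ L, act h x = -x
  one : ∀ y, (∀ x ∈ L, polar Q x y = 0) → act h y = y
  sub : ∀ y, y - act h y ∈ L
  det : ((h : GL ι F) : Matrix ι ι F).det = (-1) ^ k

theorem act_neg (h : Cfsg.isometryGroup F (⇑Q)) (x : ι → F) : act h (-x) = -act h x := by
  rw [← zero_sub, act_sub, act_zero, zero_sub]

/-- the vectors of `L` orthogonal to `x` -/
def perpIn (Q : QuadraticForm F (ι → F)) (x : ι → F) (L : Submodule F (ι → F)) : Submodule F (ι → F) where
  carrier := {y | y ∈ L ∧ polar Q x y = 0}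
  zero_mem' := ⟨L.zero_mem, by rw [polar_zero_right]⟩
  add_mem' := by
    rintro y z ⟨h1, h2⟩ ⟨h3, h4⟩
    exact ⟨L.add_mem h1 h3, by rw [polar_add_right, h2, h4, add_zero]⟩
  smul_mem' := by
    rintro c y ⟨h1, h2⟩
    exact ⟨L.smul_mem c h1, by rw [polar_smul_right, h2, smul_zero]⟩

theorem mem_perpIn {x y : ι → F} {L : Submodule F (ι → F)} :
    y ∈ perpIn Q x L ↔ y ∈ L ∧ polar Q x y = 0 := Iff.rfl

theorem polar_self_ne (h2 : (2 : F) ≠ 0) {x : ι → F} (hx : Q x ≠ 0) : polar Q x x ≠ 0 := by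
  rw [polar_self']
  exact mul_ne_zero h2 hx

theorem exists_sub (h2 : (2 : F) ≠ 0) {x : ι → F} (hx : Q x ≠ 0) {L : Submodule F (ι → F)} (hxL : x ∈ L)
    {y : ι → F} (hy : y ∈ L) : ∃ a : F, y - a • x ∈ perpIn Q x L := by
  refine ⟨polar Q x y / polar Q x x, L.sub_mem hy (L.smul_mem _ hxL), ?_⟩
  rw [polar_sub_right, polar_smul_right, smul_eq_mul, div_mul_cancel₀ _ (polar_self_ne h2 hx), sub_self]

theorem finrank_perpIn (h2 : (2 : F) ≠ 0) {x : ι → F} (hx : Q x ≠ 0) {L : Submodule F (ι → F)} (hxL : x ∈ L) :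
    finrank F L = finrank F (perpIn Q x L) + 1 := by
  let φ : L →ₗ[F] F :=
    { toFun := fun u => polar Q x u
      map_add' := fun a b => by rw [Submodule.coe_add, polar_add_right]
      map_smul' := fun c a => by rw [Submodule.coe_smul, polar_smul_right]; rfl }
  have hsurj : Function.Surjective φ := by
    intro c
    refine ⟨⟨(c / polar Q x x) • x, L.smul_mem _ hxL⟩, ?_⟩
    change polar Q x ((c / polar Q x x) • x) = c
    rw [polar_smul_right, smul_eq_mul, div_mul_cancel₀ _ (polar_self_ne h2 hx)]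
  have h1 := LinearMap.finrank_range_add_finrank_ker φ
  rw [LinearMap.range_eq_top.2 hsurj, finrank_top, finrank_self] at h1
  have h3 : finrank F (LinearMap.ker φ) = finrank F (perpIn Q x L) := by
    have e : (LinearMap.ker φ).map L.subtype = perpIn Q x L := by
      ext y
      constructor
      · rintro ⟨z, hz, rfl⟩
        exact ⟨z.2, hz⟩
      · rintro ⟨h3, h4⟩
        exact ⟨⟨y, h3⟩, h4, rfl⟩
    rw [← e]
    exact (LinearEquiv.finrank_eq (Submodule.equivMapOfInjective L.subtype L.subtype_injective _))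
  rw [← h1, h3]
  ring

theorem coe_mul_det (g h : Cfsg.isometryGroup F (⇑Q)) : (((g * h : Cfsg.isometryGroup F (⇑Q)) : GL ι F) :
    Matrix ι ι F).det = ((g : GL ι F) : Matrix ι ι F).det * ((h : GL ι F) : Matrix ι ι F).det := by
  rw [← Matrix.det_mul]
  rfl

/-- one step -/
theorem Neg.step {x : ι → F} (hx : Q x ≠ 0) {L L₁ : Submodule F (ι → F)} (hxL : x ∈ L)
    (hL₁ : ∀ y ∈ L₁, y ∈ L) (hx₁ : ∀ y ∈ L₁, polar Q x y = 0) (hL : ∀ y ∈ L, ∃ a : F, y - a • x ∈ L₁)
    {k : ℕ} {h : Cfsg.isometryGroup F (⇑Q)} (H : Neg L₁ k h) : Neg L (k + 1) (reflIso Q x hx * h) := by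
  have hfx : act h x = x := H.one x fun y hy => by rw [polar_comm]; exact hx₁ y hy
  have hr : ∀ y, polar Q x y = 0 → act (reflIso Q x hx) y = y := by
    intro y hy
    rw [H507.GmnOrth.act_refl, hy, mul_zero, zero_smul, sub_zero]
  have hrx : act (reflIso Q x hx) x = -x := reflectionMatrix_mulVec_self Q x hx
  refine ⟨fun y hy => ?_, fun y hy => ?_, fun y => ?_, ?_⟩
  · obtain ⟨a, ha⟩ := hL y hy
    have h1 : y = (y - a • x) + a • x := by abel
    obtain ⟨z, hz⟩ : ∃ z, z = y - a • x := ⟨_, rfl⟩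
    rw [← hz] at h1 ha
    rw [h1, act_mul, act_add, H.neg z ha, act_smul, hfx, act_add, act_smul, hrx, act_neg, hr z (hx₁ z ha)]
    simp only [smul_neg]
    abel
  · rw [act_mul, H.one y (fun z hz => hy z (hL₁ z hz)), hr y (hy x hxL)]
  · rw [act_mul, H507.GmnOrth.act_refl]
    have h1 := hL₁ _ (H.sub y)
    have h3 : y - (act h y - ((Q x)⁻¹ * polar Q x (act h y)) • x) =
        (y - act h y) + ((Q x)⁻¹ * polar Q x (act h y)) • x := by abel
    rw [h3]
    exact L.add_mem h1 (L.smul_mem _ hxL)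
  · rw [coe_mul_det, H.det, det_reflIso, pow_succ']

theorem isSquare_mul_iff [Finite F] (h2 : (2 : F) ≠ 0) {n a : F} (hn : ¬ IsSquare n) (ha : a ≠ 0) :
    IsSquare (n * a) ↔ ¬ IsSquare a := by
  classical
  have : Fintype F := Fintype.ofFinite F
  have hF : ringChar F ≠ 2 := by
    intro h
    have : CharP F 2 := ringChar.of_eq h
    exact h2 (CharP.cast_eq_zero F 2)
  have hn0 : n ≠ 0 := by
    rintro rfl
    exact hn IsSquare.zero
  have h3 : quadraticChar F n = -1 := (quadraticChar_neg_one_iff_not_isSquare).2 hn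
  rw [← quadraticChar_one_iff_isSquare (mul_ne_zero hn0 ha), map_mul, h3, ← quadraticChar_neg_one_iff_not_isSquare]
  constructor
  · intro h; linarith
  · intro h; rw [h]; norm_num

/-- **Pairs.** -/
theorem exists_pair [Finite F] (h2 : (2 : F) ≠ 0) {n : F} (hn : n ≠ 0) (φ : (ι → F) →ₗ[F] (ι → F)) (k : ℕ) :
    ∀ L : Submodule F (ι → F), finrank F L = k → (∀ x ∈ L, (∀ y ∈ L, polar Q x y = 0) → x = 0) →
      (∀ x ∈ L, Q (φ x) = n * Q x) → ∃ h h' : Cfsg.isometryGroup F (⇑Q), Neg L k h ∧ Neg (L.map φ) k h' ∧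
        (¬ IsSquare n → spinorSign (⇑Q) (1 : F) h' = (-1) ^ k * spinorSign (⇑Q) (1 : F) h) := by
  classical
  induction k with
  | zero =>
    intro L hL _ _
    have hbot : L = ⊥ := Submodule.finrank_eq_zero.1 hL
    subst hbot
    have hN : Neg (Q := Q) (⊥ : Submodule F (ι → F)) 0 1 := by
      refine ⟨fun x hx => ?_, fun y _ => act_one y, fun y => ?_, ?_⟩
      · rw [Submodule.mem_bot] at hx
        rw [hx, act_zero, neg_zero]
      · rw [act_one, sub_self]
        exact Submodule.zero_mem _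
      · rw [pow_zero]
        exact Matrix.det_one
    refine ⟨1, 1, hN, ?_, fun _ => by rw [pow_zero, one_mul]⟩
    rw [Submodule.map_bot]
    exact hN
  | succ k ih =>
    intro L hL hnd hφ
    have hne : L ≠ ⊥ := by
      rintro rfl
      rw [finrank_bot] at hL
      omega
    obtain ⟨x, hxL, hx⟩ := Cfsg.Agent.H175.OmegaAdjust.exists_nonsing Q L hne hnd
    have hφx : Q (φ x) ≠ 0 := by
      rw [hφ x hxL]
      exact mul_ne_zero hn hx
    have hpol : ∀ y ∈ L, ∀ z ∈ L, polar Q (φ y) (φ z) = n * polar Q y z := by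
      intro y hy z hz
      rw [polar, ← map_add, hφ _ (L.add_mem hy hz), hφ _ hy, hφ _ hz, polar]
      ring
    have hdim := finrank_perpIn h2 hx hxL
    obtain ⟨h, h', H, H', hs⟩ := ih (perpIn Q x L) (by omega) (by
      intro y hy hyz
      apply hnd y hy.1
      intro z hz
      obtain ⟨a, ha⟩ := exists_sub h2 hx hxL hz
      have h1 : z = (z - a • x) + a • x := by abel
      rw [h1, polar_add_right, hyz _ ha, polar_smul_right, polar_comm, hy.2, smul_zero, add_zero]) (by
      intro y hy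
      exact hφ y hy.1)
    refine ⟨_, _, H.step hx hxL (fun y hy => (mem_perpIn.1 hy).1) (fun y hy => (mem_perpIn.1 hy).2)
      (fun y hy => exists_sub h2 hx hxL hy),
      H'.step hφx (Submodule.mem_map_of_mem hxL) ?_ ?_ ?_, ?_⟩
    · rintro _ ⟨y, hy, rfl⟩
      exact Submodule.mem_map_of_mem hy.1
    · rintro _ ⟨y, hy, rfl⟩
      rw [hpol x hxL y hy.1, hy.2, mul_zero]
    · rintro _ ⟨y, hy, rfl⟩
      obtain ⟨a, ha⟩ := exists_sub h2 hx hxL hy
      refine ⟨a, ?_⟩
      rw [← map_smul, ← map_sub]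
      exact Submodule.mem_map_of_mem ha
    · intro hns
      rw [map_mul, map_mul, hs hns, spinorSign_reflIso h2 Q one_ne_zero _ hx,
        spinorSign_reflIso h2 Q one_ne_zero _ hφx, one_mul, one_mul, hφ x hxL, pow_succ]
      have h1 := isSquare_mul_iff h2 hns hx
      by_cases hsq : IsSquare (Q x)
      · rw [if_pos hsq, if_neg (fun h3 => (h1.1 h3) hsq)]
        simp only [one_mul, mul_neg, mul_one, neg_mul, neg_neg]
      · rw [if_neg hsq, if_pos (h1.2 hsq)]
        simp only [one_mul, mul_neg, mul_one, neg_mul]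

end Cfsg.Agent.H984.OnSpin
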