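import Mathlib

/-!
# Irreducible polynomials of odd degree over finite fields of odd order (helper984)

`exists_poly` : `P` irreducible of odd degree, not dividing `X² - 4`; then `(X² - 4) Z² = D (mod P)` with `D ∈ F`.
-/

set_option autoImplicit false

namespace Cfsg.Agent.H984.OnPoly

open Polynomial Module

variable {F : Type*} [Field F]

theorem ringChar_ne_two (h2 : (2 : F) ≠ 0) : ringChar F ≠ 2 := by
  intro h
  have : CharP F 2 := ringChar.of_eq h
  exact h2 (CharP.cast_eq_zero F 2)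

/-- nonsquares stay nonsquares in extensions of odd degree -/
theorem not_isSquare_map {E : Type*} [Field E] [Algebra F E] (hodd : Odd (finrank F E)) {n : F} (hn : ¬ IsSquare n) :
    ¬ IsSquare (algebraMap F E n) := by
  rintro ⟨y, hy⟩
  apply hn
  have h0 : n ≠ 0 := by
    rintro rfl
    exact hn IsSquare.zero
  obtain ⟨k, hk⟩ := hodd
  have h1 := congrArg (Algebra.norm F) hy
  rw [Algebra.norm_algebraMap, map_mul, hk] at h1
  refine ⟨Algebra.norm F y / n ^ k, ?_⟩
  rw [div_mul_div_comm, ← h1, eq_div_iff (mul_ne_zero (pow_ne_zero _ h0) (pow_ne_zero _ h0))]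
  ring

theorem isSquare_mul_of_not [Finite F] (h2 : (2 : F) ≠ 0) {a b : F} (ha : ¬ IsSquare a) (hb : ¬ IsSquare b) :
    IsSquare (a * b) := by
  classical
  have : Fintype F := Fintype.ofFinite F
  have ha0 : a ≠ 0 := by
    rintro rfl
    exact ha IsSquare.zero
  have hb0 : b ≠ 0 := by
    rintro rfl
    exact hb IsSquare.zero
  rw [← quadraticChar_one_iff_isSquare (mul_ne_zero ha0 hb0), map_mul,
    quadraticChar_neg_one_iff_not_isSquare.2 ha, quadraticChar_neg_one_iff_not_isSquare.2 hb]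
  norm_num

/-- **The square class of `X² - 4`.** -/
theorem exists_poly [Finite F] (h2 : (2 : F) ≠ 0) {P : F[X]} (hP : Irreducible P) (hodd : Odd P.natDegree)
    (h4 : ¬ P ∣ X ^ 2 - 4) :
    ∃ (D : F) (Z Y : F[X]), D ≠ 0 ∧ P ∣ (X ^ 2 - 4) * Z ^ 2 - C D ∧ P ∣ Z * Y - 1 := by
  have hF : Fact (Irreducible P) := ⟨hP⟩
  have hfr : finrank F (AdjoinRoot P) = P.natDegree := by
    rw [(AdjoinRoot.powerBasis hP.ne_zero).finrank, AdjoinRoot.powerBasis_dim]
  have hfd : Module.Finite F (AdjoinRoot P) := Module.finite_of_finrank_pos (by rw [hfr]; exact hodd.pos)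
  have hfin : Finite (AdjoinRoot P) := Module.finite_of_finite F
  have hE2 : (2 : AdjoinRoot P) ≠ 0 := by
    intro h
    apply h2
    apply (algebraMap F (AdjoinRoot P)).injective
    rw [map_ofNat, map_zero, h]
  have hsurj : ∀ y : AdjoinRoot P, ∃ Y : F[X], AdjoinRoot.mk P Y = y := fun y => AdjoinRoot.mk_surjective y
  have ha : AdjoinRoot.mk P (X ^ 2 - 4) ≠ 0 := by
    intro h
    exact h4 (AdjoinRoot.mk_eq_zero.1 h)
  obtain ⟨D, y, hD, hy⟩ : ∃ (D : F) (y : AdjoinRoot P), D ≠ 0 ∧ AdjoinRoot.mk P (X ^ 2 - 4) =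
      algebraMap F (AdjoinRoot P) D * y ^ 2 := by
    by_cases hsq : IsSquare (AdjoinRoot.mk P (X ^ 2 - 4))
    · obtain ⟨y, hy⟩ := hsq
      exact ⟨1, y, one_ne_zero, by rw [map_one, one_mul, hy, sq]⟩
    · obtain ⟨n, hn⟩ := FiniteField.exists_nonsquare (ringChar_ne_two h2)
      have hn' := not_isSquare_map (F := F) (E := AdjoinRoot P) (by rw [hfr]; exact hodd) hn
      obtain ⟨w, hw⟩ := isSquare_mul_of_not hE2 hsq hn'
      have hn0 : algebraMap F (AdjoinRoot P) n ≠ 0 := by
        intro h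
        rw [h] at hn'
        exact hn' IsSquare.zero
      refine ⟨n, w / algebraMap F (AdjoinRoot P) n, ?_, ?_⟩
      · rintro rfl
        exact hn IsSquare.zero
      · rw [div_pow, pow_two w, ← hw]
        field_simp
  have hy0 : y ≠ 0 := by
    rintro rfl
    apply ha
    rw [hy]
    ring
  obtain ⟨Z, hZ⟩ := hsurj y⁻¹
  obtain ⟨Y, hY⟩ := hsurj y
  refine ⟨D, Z, Y, hD, ?_, ?_⟩
  · rw [← AdjoinRoot.mk_eq_zero, map_sub, map_mul, map_pow, hZ, hy, AdjoinRoot.mk_C]
    rw [sub_eq_zero, mul_assoc, ← mul_pow, mul_inv_cancel₀ hy0, one_pow, mul_one]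
    rfl
  · rw [← AdjoinRoot.mk_eq_zero, map_sub, map_mul, hZ, hY, map_one, inv_mul_cancel₀ hy0, sub_self]

/-- the norm form is universal -/
theorem exists_norm [Finite F] (h2 : (2 : F) ≠ 0) {D : F} (hD : D ≠ 0) (n : F) : ∃ α β : F, α ^ 2 - D * β ^ 2 = n := by
  classical
  have : Fintype F := Fintype.ofFinite F
  obtain ⟨a, b, hab⟩ := FiniteField.exists_root_sum_quadratic (f := (X ^ 2 : F[X]))
    (g := (C (-D) * X ^ 2 - C n : F[X])) (by rw [degree_X_pow]; rfl) (by
      rw [degree_sub_eq_left_of_degree_lt]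
      · rw [degree_C_mul_X_pow _ (neg_ne_zero.2 hD)]; rfl
      · rw [degree_C_mul_X_pow _ (neg_ne_zero.2 hD)]
        exact lt_of_le_of_lt degree_C_le (by norm_num)) (by
      exact FiniteField.odd_card_of_char_ne_two (ringChar_ne_two h2))
  refine ⟨a, b, ?_⟩
  simp only [eval_pow, eval_X, eval_sub, eval_mul, eval_C] at hab
  linear_combination hab

end Cfsg.Agent.H984.OnPoly
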