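import Cfsg.Agent.H984.On.Spin
import Cfsg.Agent.H507.GmnOrthRows
import Cfsg.Agent.H501.RowOmega
import Cfsg.Agent.H952.On.Table

/-!
# Real elements of odd prime order in orthogonal groups (helper984)

* `real_even` : `p ∣ q ^ c + 1`, `c` even: all elements of order `p` of `Ω` are real;
* `real_odd_dim` : odd dimension, odd `q`: all elements of order `p` are real;
* `real_fix` : elements with a fixed space of dimension at least two are real;
* `ev_of_real` : `Ev p (PΩ)` from realness in `Ω`.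
-/

set_option autoImplicit false
set_option linter.unusedSectionVars false

namespace Cfsg.Agent.H984.OnReal

open QuadraticMap Matrix Module Cfsg
open Cfsg.Agent.ClassicalGeometry.Reflection Cfsg.Agent.ClassicalGeometry.OrthCharTwo
  Cfsg.Agent.ClassicalGeometry.SpinorSign Cfsg.Agent.ClassicalGeometry.OmegaIndex
  Cfsg.Agent.ClassicalGeometry.OrthDickson
open Cfsg.Agent.H507.GmnOrth Cfsg.Agent.H507.GmnOrthRows Cfsg.Agent.H984.OnSpin
open Cfsg.Agent.H467.OddNorm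

variable {ι : Type} [Fintype ι] [DecidableEq ι] {F : Type*} [Field F] {Q : QuadraticForm F (ι → F)}

theorem not_dvd_card [Finite F] {p : ℕ} (hp : p.Prime) (hpF : (p : F) ≠ 0) : ¬ p ∣ Nat.card F := by
  intro h
  apply hpF
  have : Fintype F := Fintype.ofFinite F
  obtain ⟨r, hr⟩ := CharP.exists F
  have hrp : Fact r.Prime := ⟨CharP.char_is_prime F r⟩
  obtain ⟨k, -, hk⟩ := FiniteField.card F r
  rw [Nat.card_eq_fintype_card, hk] at h
  have h1 : p = r := (Nat.prime_dvd_prime_iff_eq hp hrp.out).1 (hp.dvd_of_dvd_pow h)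
  rw [h1]
  exact CharP.cast_eq_zero F r

/-- iterating the conjugation to the `q`-th power -/
theorem conj_pow_iter {G : Type*} [Group G] {h g : G} {q : ℕ} (hh : h * g * h⁻¹ = g ^ q) (k : ℕ) :
    h ^ k * g * (h ^ k)⁻¹ = g ^ (q ^ k) := by
  induction k with
  | zero => simp
  | succ k ih =>
    have h1 : h ^ (k + 1) * g * (h ^ (k + 1))⁻¹ = h * (h ^ k * g * (h ^ k)⁻¹) * h⁻¹ := by
      rw [pow_succ']
      group
    rw [h1, ih, ← conj_pow, hh, ← pow_mul, ← pow_succ']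

/-- `p ∣ q ^ c + 1`, `c` even -/
theorem real_even [Fintype F] (hQ : (polarBilin Q).Nondegenerate) (hn : 2 ≤ Fintype.card ι)
    (h4 : (∃ θ : F, θ ≠ 0 ∧ θ ≠ 1) ∨ Fintype.card ι ≠ 4) {p : ℕ} (hp : p.Prime) (hp2 : p ≠ 2) (hpF : (p : F) ≠ 0)
    {c : ℕ} (hc : Even c) (hq : p ∣ Fintype.card F ^ c + 1) {g : Cfsg.isometryGroup F (⇑Q)} (hg : g ^ p = 1) :
    ∃ h ∈ Cfsg.Omega F (⇑Q), h * g * h⁻¹ = g⁻¹ := by
  obtain ⟨h, hh⟩ := exists_conj_pow hQ hp hp2 hpF hg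
  obtain ⟨d, hd⟩ := hc
  refine ⟨h ^ c, ?_, ?_⟩
  · rw [hd, pow_add]
    exact sq_mem_omega hQ hn h4 _
  · rw [conj_pow_iter hh, eq_inv_iff_mul_eq_one, ← pow_succ]
    obtain ⟨e, he⟩ := hq
    rw [he, pow_mul, hg, one_pow]

/-- `-1` as an isometry -/
def negIso (Q : QuadraticForm F (ι → F)) : Cfsg.isometryGroup F (⇑Q) :=
  ⟨-1, (Cfsg.Agent.ClassicalGeometry.Reflection.mem_isometryGroup_iff ⇑Q _).2 fun v => by
    change Q ((-(1 : Matrix ι ι F)) *ᵥ v) = Q v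
    rw [Matrix.neg_mulVec, Matrix.one_mulVec, QuadraticMap.map_neg]⟩

theorem act_negIso (x : ι → F) : act (negIso Q) x = -x := by
  change (-(1 : Matrix ι ι F)) *ᵥ x = -x
  rw [Matrix.neg_mulVec, Matrix.one_mulVec]

theorem det_negIso : ((negIso Q : GL ι F) : Matrix ι ι F).det = (-1) ^ Fintype.card ι := by
  change (-(1 : Matrix ι ι F)).det = _
  rw [Matrix.det_neg, Matrix.det_one, mul_one]

theorem negIso_comm (g : Cfsg.isometryGroup F (⇑Q)) : negIso Q * g = g * negIso Q := by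
  apply act_ext
  intro x
  rw [act_mul, act_mul, act_negIso, act_negIso, act_neg]

theorem det_eq [Finite F] (h0 : (2 : F) ≠ 0) (hQ : (polarBilin Q).Nondegenerate) (h : Cfsg.isometryGroup F (⇑Q)) :
    ((h : GL ι F) : Matrix ι ι F).det = 1 ∨ ((h : GL ι F) : Matrix ι ι F).det = -1 := by
  refine Cfsg.Agent.ClassicalGeometry.CartanDieudonne.isometry_induction h0 Q hQ
    (fun g => ((g : Matrix.GeneralLinearGroup ι F) : Matrix ι ι F).det = 1 ∨
      ((g : Matrix.GeneralLinearGroup ι F) : Matrix ι ι F).det = -1) (Or.inl ?_) ?_ h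
  · change ((1 : Matrix ι ι F)).det = 1
    exact Matrix.det_one
  · intro v hv g hg
    rw [coe_mul_det, det_reflIso]
    rcases hg with hg | hg
    · right; rw [hg, mul_one]
    · left; rw [hg]; ring

theorem conj_of_comm {G : Type*} [Group G] {h x g : G} (hh : h * g * h⁻¹ = g⁻¹) (hx : x * g = g * x) :
    h * x * g * (h * x)⁻¹ = g⁻¹ := by
  have h1 : h * x * g * (h * x)⁻¹ = h * (x * g * x⁻¹) * h⁻¹ := by group
  rw [h1, hx, mul_inv_cancel_right, hh]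

/-- **Odd dimension.** -/
theorem real_odd_dim [Fintype F] (h2 : (2 : F) ≠ 0) (hQ : (polarBilin Q).Nondegenerate) (hn : 2 ≤ Fintype.card ι)
    (hodd : Odd (Fintype.card ι)) {p : ℕ} (hp : p.Prime) (hp2 : p ≠ 2) (hpF : (p : F) ≠ 0)
    {c : ℕ} (hc : Odd c) (hq : p ∣ (Fintype.card F ^ c) ^ 2 - 1) {g : Cfsg.isometryGroup F (⇑Q)} (hg : g ^ p = 1) :
    ∃ h ∈ Cfsg.Omega F (⇑Q), h * g * h⁻¹ = g⁻¹ := by
  by_cases hg1 : g = 1
  · exact ⟨1, Subgroup.one_mem _, by rw [hg1]; simp⟩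
  obtain ⟨h0, hh0⟩ := isConj_iff.1 (Cfsg.Agent.H501.RowOmega.conj_inv Q hQ hp hp2 (not_dvd_card hp hpF) hg)
  obtain ⟨h1, hd1, hh1⟩ : ∃ h1 : Cfsg.isometryGroup F (⇑Q), ((h1 : GL ι F) : Matrix ι ι F).det = 1 ∧
      h1 * g * h1⁻¹ = g⁻¹ := by
    rcases det_eq h2 hQ h0 with h | h
    · exact ⟨h0, h, hh0⟩
    · refine ⟨h0 * negIso Q, ?_, conj_of_comm hh0 (negIso_comm g)⟩
      rw [coe_mul_det, h, det_negIso, hodd.neg_one_pow]
      ring
  rcases Int.units_eq_one_or (spinorSign (⇑Q) (1 : F) h1) with hs | hs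
  · exact ⟨h1, (mem_Omega_iff h2 Q hQ hn one_ne_zero _).2 ⟨hd1, hs⟩, hh1⟩
  · obtain ⟨x, hx1, hx2, hx3⟩ := exists_spin h2 hp hp2 hpF hc hq hQ hg hg1
    refine ⟨h1 * x, (mem_Omega_iff h2 Q hQ hn one_ne_zero _).2 ⟨?_, ?_⟩, conj_of_comm hh1 hx3⟩
    · rw [coe_mul_det, hd1, hx1, one_mul]
    · rw [map_mul, hs, hx2]
      decide

/-- **Elements with a fixed space of dimension at least two.** -/
theorem real_fix [Finite F] (hQ : (polarBilin Q).Nondegenerate) (hn : 4 < Fintype.card ι) {p : ℕ}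
    (hp : p.Prime) (hp2 : p ≠ 2) (hpF : (p : F) ≠ 0) {x : Cfsg.isometryGroup F ⇑Q} (hx : x ^ p = 1)
    {v : ι → F} (hv0 : v ≠ 0) (hv : act x v = v) (hdim : (2 : F) ≠ 0 → 2 ≤ finrank F (fixSp x)) :
    ∃ h ∈ Cfsg.Omega F (⇑Q), h * x * h⁻¹ = x⁻¹ := by
  have : Finite (Cfsg.isometryGroup F ⇑Q) := Subtype.finite
  have hpF' := not_dvd_card hp hpF
  obtain ⟨g, hg⟩ := isConj_iff.1 (Cfsg.Agent.H501.RowOmega.conj_inv Q hQ hp hp2 hpF' hx)
  obtain ⟨W, hW⟩ : ∃ W, W = fixSp x := ⟨_, rfl⟩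
  have hmem : ∀ w, w ∈ W ↔ act x w = w := by
    intro w
    rw [hW]
    exact Iff.rfl
  have hWn : ∀ w ∈ W, (∀ y ∈ W, polar ⇑Q w y = 0) → w = 0 := by
    intro w hw h
    exact Cfsg.Agent.H501.RowOmega.fix_nondeg Q hQ hp hpF' hx ((hmem w).1 hw) (fun y hy => h y ((hmem y).2 hy))
  let K : Subgroup (Cfsg.isometryGroup F ⇑Q) := Subgroup.centralizer {x}
  have hK : ∀ u ∈ W, ∀ hu : Q u ≠ 0, reflIso Q u hu ∈ K := by
    intro u hu hQu
    rw [Subgroup.mem_centralizer_singleton_iff]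
    have hu' := (hmem u).1 hu
    apply act_ext
    intro y
    have h3 : polar ⇑Q u (act x y) = polar ⇑Q u y := by
      conv_lhs => rw [← hu']
      exact polar_act x u y
    rw [act_mul, act_mul, H507.GmnOrth.act_refl, H507.GmnOrth.act_refl, act_sub, act_smul, hu', h3]
  have hadj : ∃ s ∈ K, g * s ∈ Cfsg.Omega F ⇑Q := by
    by_cases h2 : (2 : F) = 0
    · obtain ⟨u, huW, hu⟩ := Cfsg.Agent.H175.OmegaAdjust.exists_nonsing Q W
        ((Submodule.ne_bot_iff W).2 ⟨v, (hmem v).2 hv, hv0⟩) hWn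
      exact Cfsg.Agent.H175.OmegaAdjust.adjust_two Q h2 hQ (Or.inr (by omega)) K u hu (hK u huW hu) g
    · have : Fintype F := Fintype.ofFinite F
      obtain ⟨c, hc⟩ := FiniteField.exists_nonsquare (F := F) (OnPoly.ringChar_ne_two h2)
      have hc0 : c ≠ 0 := by
        rintro rfl
        exact hc (IsSquare.zero)
      obtain ⟨u, huW, hu⟩ := Cfsg.Agent.H175.OmegaAdjust.exists_value h2 Q W (by rw [hW]; exact hdim h2) hWn 1
      obtain ⟨w, hwW, hw⟩ := Cfsg.Agent.H175.OmegaAdjust.exists_value h2 Q W (by rw [hW]; exact hdim h2) hWn c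
      have hu0 : Q u ≠ 0 := by rw [hu]; exact one_ne_zero
      have hw0 : Q w ≠ 0 := by rw [hw]; exact hc0
      exact Cfsg.Agent.H175.OmegaAdjust.adjust_odd_refl Q h2 hQ (by omega) K u w hu0 hw0
        (by rw [hu, hw, one_mul]; exact hc) (hK u huW hu0) (hK w hwW hw0) g
  obtain ⟨s, hs, hgs⟩ := hadj
  refine ⟨g * s, hgs, conj_of_comm hg ?_⟩
  exact Subgroup.mem_centralizer_singleton_iff.1 hs

/-- **`Ev` from realness in `Ω`.** -/
theorem ev_of_real [Finite F] (hQ : (polarBilin Q).Nondegenerate) (hn : 3 ≤ Fintype.card ι)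
    (hs : ∃ u : ι → F, u ≠ 0 ∧ Q u = 0) {p : ℕ} [hp : Fact p.Prime] (hp2 : p ≠ 2)
    (hc : Subgroup.center (POmega F (⇑Q)) = ⊥) (hd : p ∣ Nat.card (POmega F (⇑Q)))
    (hreal : ∀ g : Cfsg.isometryGroup F (⇑Q), g ^ p = 1 → ∃ h ∈ Cfsg.Omega F (⇑Q), h * g * h⁻¹ = g⁻¹) :
    Ev p (POmega F (⇑Q)) := by
  have : Finite (Cfsg.isometryGroup F ⇑Q) := Subtype.finite
  have hfin : Finite (POmega F (⇑Q)) := Quotient.finite _
  refine Ev.of_real hp2 hc hd fun z hz _ => ?_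
  let π : Cfsg.Omega F (⇑Q) →* POmega F (⇑Q) := QuotientGroup.mk' _
  have hz' : z ^ p = 1 := by rw [← hz, pow_orderOf_eq_one]
  obtain ⟨x, rfl, hx⟩ := Cfsg.Agent.H507.GmnLinA.exists_lift π (QuotientGroup.mk'_surjective _) (m := 2) (p := p) (by
    intro x hx
    have h1 : x ∈ Subgroup.center (Cfsg.Omega F (⇑Q)) := (QuotientGroup.eq_one_iff x).1 hx
    apply Subtype.ext
    apply Subtype.ext
    apply Units.ext
    change (((x : Cfsg.isometryGroup F (⇑Q)) : Matrix.GeneralLinearGroup ι F) : Matrix ι ι F) ^ 2 = 1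
    rcases (Cfsg.Agent.LieClassical.OrthCenter.mem_center_omega_iff hQ hn hs x).1 h1 with h2 | h2
    · rw [h2, one_pow]
    · rw [h2, neg_one_sq]) ((Nat.coprime_primes Nat.prime_two hp.out).2 hp2.symm) hp.out.one_lt hz'
  have hg : (x : Cfsg.isometryGroup F (⇑Q)) ^ p = 1 := by rw [← SubmonoidClass.coe_pow, hx]; rfl
  obtain ⟨h, hh, hc⟩ := hreal _ hg
  refine ⟨π ⟨h, hh⟩, ?_⟩
  rw [← map_inv, ← map_inv, ← map_mul, ← map_mul]
  congr 1
  exact Subtype.ext hc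

/-! ### the order of `q²` -/

/-- the order of `q²` modulo `p` -/
theorem exists_order {p q : ℕ} (hp : p.Prime) (hq : ¬ p ∣ q) :
    ∃ c : ℕ, 0 < c ∧ (∀ k, p ∣ (q ^ k) ^ 2 - 1 ↔ c ∣ k) ∧ (Even c → p ∣ q ^ c + 1) := by
  have : Fact p.Prime := ⟨hp⟩
  have hq0 : q ≠ 0 := by rintro rfl; exact hq (dvd_zero _)
  have hqz : (q : ZMod p) ≠ 0 := fun h => hq ((ZMod.natCast_eq_zero_iff q p).1 h)
  obtain ⟨u, hu⟩ : ∃ u : (ZMod p)ˣ, (u : ZMod p) = (q : ZMod p) ^ 2 :=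
    ⟨Units.mk0 _ (pow_ne_zero 2 hqz), rfl⟩
  have key : ∀ k, p ∣ (q ^ k) ^ 2 - 1 ↔ orderOf u ∣ k := by
    intro k
    rw [orderOf_dvd_iff_pow_eq_one, ← ZMod.natCast_eq_zero_iff, Nat.cast_sub (Nat.one_le_pow _ _
      (pow_pos (Nat.pos_of_ne_zero hq0) _)), sub_eq_zero, Units.ext_iff, Units.val_pow_eq_pow_val, hu, Units.val_one]
    push_cast
    rw [← pow_mul, ← pow_mul, mul_comm]
  refine ⟨orderOf u, orderOf_pos u, key, ?_⟩
  rintro ⟨d, hd⟩
  have h1 := (key (orderOf u)).2 (dvd_refl _)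
  have h3 : (q ^ orderOf u) ^ 2 - 1 = (q ^ orderOf u + 1) * (q ^ orderOf u - 1) := by
    rw [← Nat.sq_sub_sq, one_pow]
  rw [h3] at h1
  rcases (Nat.Prime.dvd_mul hp).1 h1 with h | h
  · exact h
  · exfalso
    have h4 : p ∣ (q ^ d) ^ 2 - 1 := by
      rw [← pow_mul, mul_two, ← hd]
      exact h
    have h5 := Nat.le_of_dvd (by
      rcases Nat.eq_zero_or_pos d with h6 | h6
      · subst h6
        have := orderOf_pos u
        omega
      · exact h6) ((key d).1 h4)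
    have := orderOf_pos u
    omega

end Cfsg.Agent.H984.OnReal
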