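import Cfsg.Agent.H984.On.RowOdd
import Cfsg.Agent.H984.On.Dim
import Cfsg.Agent.H984.On.FrameRow

/-!
# The rows `PΩ⁺_{2m}(q)` and `PΩ⁻_{2m}(q)` of S3855 (helper984, tasks ON-OPLUS, ON-OMINUS)
-/

set_option autoImplicit false
set_option linter.unusedSectionVars false

namespace Cfsg.Agent.H984.OnRows

open QuadraticMap Matrix Module Cfsg
open Cfsg.Agent.ClassicalGeometry.OrthCharTwo
open Cfsg.Agent.H507.GmnOrth Cfsg.Agent.H507.GmnOrthRows Cfsg.Agent.H984.OnSpin Cfsg.Agent.H984.OnReal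
  Cfsg.Agent.H984.OnDim
open Cfsg.Agent.H467.OddNorm Cfsg.Agent.H952.On
open Cfsg.Agent.LieClassical.OrthCore Cfsg.Agent.GenOrth Cfsg.Agent.LieClassical.OmegaReindex
open Cfsg.Agent.H193.Types Cfsg.Agent.H193.Count Cfsg.Agent.H193.ClassCount
  Cfsg.Agent.H193.RealForm Cfsg.Agent.H193.OrthReal

/-! ### types of elements without fixed vectors -/

section Ty

variable {F : Type} [Field F] [Fintype F]

/-- the order of `q` and the order `c` of `q²` -/
theorem order_cases {p q c : ℕ} (hp : p.Prime) (hq : ¬ p ∣ q) (hc : 0 < c)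
    (hck : ∀ k, p ∣ (q ^ k) ^ 2 - 1 ↔ c ∣ k) (w : (ZMod p)ˣ) (hw : (w : ZMod p) = (q : ZMod p)) :
    (Odd (orderOf w) → p ∣ q ^ c - 1) ∧ (¬ Odd (orderOf w) → orderOf w = 2 * c ∧ p ∣ q ^ c + 1) := by
  have : Fact p.Prime := ⟨hp⟩
  have hq0 : 0 < q := Nat.pos_of_ne_zero (by rintro rfl; exact hq (dvd_zero _))
  have hkey : ∀ k, w ^ k = 1 ↔ p ∣ q ^ k - 1 := by
    intro k
    rw [← ZMod.natCast_eq_zero_iff, Nat.cast_sub (Nat.one_le_pow _ _ hq0), sub_eq_zero, Units.ext_iff,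
      Units.val_pow_eq_pow_val, hw, Units.val_one]
    push_cast
    rfl
  have h2c : orderOf w ∣ 2 * c := by
    rw [orderOf_dvd_iff_pow_eq_one, hkey, mul_comm, pow_mul]
    exact (hck c).2 (dvd_refl _)
  constructor
  · intro ho
    rw [← hkey, ← orderOf_dvd_iff_pow_eq_one]
    exact (Nat.Coprime.dvd_mul_left (Nat.Coprime.symm (Nat.coprime_two_left.2 ho))).1 h2c
  · intro hne
    obtain ⟨b, hb⟩ := Nat.not_odd_iff_even.1 hne
    have hb' : orderOf w = 2 * b := by omega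
    have h1 : c ∣ b := by
      rw [← hck b, ← pow_mul, ← hkey, mul_comm, ← hb']
      exact pow_orderOf_eq_one w
    have h2 : b ∣ c := by
      rw [hb'] at h2c
      exact Nat.dvd_of_mul_dvd_mul_left two_pos h2c
    have hbc : b = c := Nat.dvd_antisymm h2 h1
    subst hbc
    refine ⟨hb', ?_⟩
    have h3 : p ∣ (q ^ b) ^ 2 - 1 := (hck b).2 (dvd_refl _)
    have h4 : (q ^ b) ^ 2 - 1 = (q ^ b + 1) * (q ^ b - 1) := by
      rw [← Nat.sq_sub_sq, one_pow]
    rw [h4] at h3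
    rcases (Nat.Prime.dvd_mul hp).1 h3 with h5 | h5
    · exact h5
    · exfalso
      rw [← hkey, ← orderOf_dvd_iff_pow_eq_one, hb'] at h5
      have := Nat.le_of_dvd hc h5
      omega

/-- plus type -/
theorem type_plus {m p c : ℕ} (hm : 1 ≤ m) (hp : p.Prime) (hp2 : p ≠ 2) (hpF : (p : F) ≠ 0) (hc : 0 < c)
    (hck : ∀ k, p ∣ (Fintype.card F ^ k) ^ 2 - 1 ↔ c ∣ k)
    (g : Cfsg.isometryGroup F (⇑(quadPlus m F))) (hg : g ^ p = 1)
    (hfix : ∀ x : Fin m ⊕ Fin m → F, act g x = x → x = 0) :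
    p ∣ Fintype.card F ^ c - 1 ∨ (p ∣ Fintype.card F ^ c + 1 ∧ Even (m / c)) := by
  classical
  have : Fact p.Prime := ⟨hp⟩
  obtain ⟨ζ, hζ⟩ := exists_root (F := F) hp hpF
  have hq : ¬ p ∣ Fintype.card F := by
    rw [← Nat.card_eq_fintype_card]
    exact not_dvd_card hp hpF
  have hqz : (Fintype.card F : ZMod p) ≠ 0 := fun h => hq ((ZMod.natCast_eq_zero_iff _ p).1 h)
  obtain ⟨w, hw⟩ : ∃ w : (ZMod p)ˣ, (w : ZMod p) = (Fintype.card F : ZMod p) := ⟨Units.mk0 _ hqz, rfl⟩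
  have h0 : ty (r := p) ζ g.1.val (0 : ZMod p) = 0 := ty_zero ζ hfix
  have h1 : Inv w (ty (r := p) ζ g.1.val) := fun c => by rw [hw]; exact typ_frob hζ _ c
  have h2 := Cfsg.Agent.H193.OrthCount.symm_of_mem hζ (quadPlus m F) (nondeg_of_nondegenerate quadPlus_nondegenerate)
    g hg
  have h3 : ∑ c, ty (r := p) ζ g.1.val c = 2 * m := by
    rw [sum_ty hζ (pow_matrix _ hg), Fintype.card_sum, Fintype.card_fin, two_mul]
  have h4 := (Cfsg.Agent.H193.OrthCount.plus_full hζ w hw hp2 hm h1 h2 h3 h0).1 ⟨g, hg, rfl⟩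
  obtain ⟨h5, h6⟩ := order_cases hp hq hc hck w hw
  by_cases ho : Odd (orderOf w)
  · exact Or.inl (h5 ho)
  · obtain ⟨h7, h8⟩ := h6 ho
    refine Or.inr ⟨h8, ?_⟩
    rw [← Nat.not_odd_iff_even]
    intro h9
    apply h4
    refine ⟨ho, ?_⟩
    rwa [h7, Nat.mul_div_mul_left _ _ two_pos]

/-- minus type -/
theorem type_minus {m p c : ℕ} (hm : 1 ≤ m) {a b : F} (hab : Aniso a b) (hp : p.Prime) (hp2 : p ≠ 2)
    (hpF : (p : F) ≠ 0) (hc : 0 < c) (hck : ∀ k, p ∣ (Fintype.card F ^ k) ^ 2 - 1 ↔ c ∣ k)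
    (g : Cfsg.isometryGroup F (⇑(quadMinus (m - 1) F a b))) (hg : g ^ p = 1)
    (hfix : ∀ x : (Fin (m - 1) ⊕ Fin (m - 1)) ⊕ Fin 2 → F, act g x = x → x = 0) :
    p ∣ Fintype.card F ^ c + 1 ∧ Odd (m / c) := by
  classical
  have : Fact p.Prime := ⟨hp⟩
  obtain ⟨ζ, hζ⟩ := exists_root (F := F) hp hpF
  have hq : ¬ p ∣ Fintype.card F := by
    rw [← Nat.card_eq_fintype_card]
    exact not_dvd_card hp hpF
  have hqz : (Fintype.card F : ZMod p) ≠ 0 := fun h => hq ((ZMod.natCast_eq_zero_iff _ p).1 h)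
  obtain ⟨w, hw⟩ : ∃ w : (ZMod p)ˣ, (w : ZMod p) = (Fintype.card F : ZMod p) := ⟨Units.mk0 _ hqz, rfl⟩
  have h0 : ty (r := p) ζ g.1.val (0 : ZMod p) = 0 := ty_zero ζ hfix
  have h1 : Inv w (ty (r := p) ζ g.1.val) := fun c => by rw [hw]; exact typ_frob hζ _ c
  have h2 := Cfsg.Agent.H193.OrthCount.symm_of_mem hζ (quadMinus (m - 1) F a b)
    (nondeg_of_nondegenerate (quadMinus_nondegenerate hab)) g hg
  have h3 : ∑ c, ty (r := p) ζ g.1.val c = 2 * m := by
    rw [sum_ty hζ (pow_matrix _ hg)]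
    simp only [Fintype.card_sum, Fintype.card_fin]
    omega
  have h4 := (Cfsg.Agent.H193.OrthCount.minus_full hζ w hw hp2 hm hab h1 h2 h3 h0).1 ⟨g, hg, rfl⟩
  obtain ⟨h5, h6⟩ := order_cases hp hq hc hck w hw
  push Not at h4
  obtain ⟨h4a, h4b⟩ := h4
  have ho : ¬ Odd (orderOf w) := by
    simpa using h4a
  obtain ⟨h7, h8⟩ := h6 ho
  refine ⟨h8, ?_⟩
  rw [h7, Nat.mul_div_mul_left _ _ two_pos] at h4b
  simpa using h4b

end Ty

/-! ### the general even row -/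

/-- **The even rows**, up to frames. -/
theorem row_even {ι : Type} [Fintype ι] [DecidableEq ι] {F : Type} [Field F] [Fintype F]
    {Q : QuadraticForm F (ι → F)} (hQ : (polarBilin Q).Nondegenerate) {m : ℕ} (hm : 4 ≤ m)
    (hcard : Fintype.card ι = 2 * m) (hs : ∃ u : ι → F, u ≠ 0 ∧ Q u = 0) {p : ℕ} [hp : Fact p.Prime] (hp2 : p ≠ 2)
    (hpF : (p : F) ≠ 0) (hZ : Subgroup.center (POmega F (⇑Q)) = ⊥) (hd : p ∣ Nat.card (POmega F (⇑Q)))
    (hfr : ∀ c w : ℕ, 0 < c → 2 ≤ w → m = c * w → 5 ≤ c * w →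
      (∀ k, p ∣ (Fintype.card F ^ k) ^ 2 - 1 ↔ c ∣ k) →
      (∃ g : Cfsg.isometryGroup F (⇑Q), g ^ p = 1 ∧ ∀ x : ι → F, act g x = x → x = 0) → Ev p (POmega F (⇑Q))) :
    Row p (POmega F (⇑Q)) := by
  have hq : ¬ p ∣ Fintype.card F := by
    rw [← Nat.card_eq_fintype_card]
    exact not_dvd_card hp.out hpF
  obtain ⟨c, hc0, hck, hceven⟩ := exists_order hp.out hq
  rcases Nat.even_or_odd c with he | ho
  · exact Row.ev (ev_of_real hQ (by omega) hs hp2 hZ hd fun g hg =>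
      real_even hQ (by omega) (Or.inr (by omega)) hp.out hp2 hpF he (hceven he) hg)
  by_cases hfp : ∃ g : Cfsg.isometryGroup F (⇑Q), g ^ p = 1 ∧ ∀ x : ι → F, act g x = x → x = 0
  · obtain ⟨g, hg, hgf⟩ := id hfp
    have hcm : c ∣ m := by
      obtain ⟨k, hk, hpk⟩ := mov_dim hQ hp.out hp2 hpF hg
      have h1 := fix_add_mov hQ hpF hg
      have h2 : fixSp g = ⊥ := by
        rw [eq_bot_iff]
        intro x hx
        exact hgf x hx
      rw [h2, finrank_bot, zero_add, hk, hcard] at h1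
      obtain rfl : k = m := by omega
      exact (hck _).1 hpk
    obtain ⟨w, hw⟩ := hcm
    have hw0 : w ≠ 0 := by
      rintro rfl
      omega
    rcases Nat.lt_or_ge w 2 with hw1 | hw2
    · -- cyclic Sylow subgroups
      obtain rfl : w = 1 := by omega
      have : Finite (Cfsg.isometryGroup F ⇑Q) := Subtype.finite
      refine Row.cyclic fun P => ?_
      exact Cfsg.Agent.H469.isCyclic_of_surj (QuotientGroup.mk' (Subgroup.center (Cfsg.Omega F ⇑Q)))
        (QuotientGroup.mk'_surjective _) (fun P hP => cyclic_of hQ hp2 hpF (fun k => (hck k).1) (by omega) P hP)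
        P P.isPGroup'
    · refine Row.ev ?_
      by_cases hm4 : m = 4
      · -- `c = 1`
        have hc1 : c = 1 := by
          have h1 : c ∣ 4 := ⟨w, by omega⟩
          have h2 := Nat.le_of_dvd (by norm_num) h1
          obtain ⟨j, hj⟩ := ho
          have : c = 1 ∨ c = 3 := by omega
          rcases this with h3 | h3
          · exact h3
          · exfalso
            rw [h3] at h1
            revert h1
            decide
        have h1 : p ∣ Fintype.card F ^ 2 - 1 := by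
          have := (hck 1).2 (by rw [hc1])
          rwa [pow_one] at this
        exact ev_of_real hQ (by omega) hs hp2 hZ hd fun g hg =>
          real_omega hp.out hp2 hpF h1 hQ (by omega) (Or.inr (by omega)) hg (Or.inr (by omega))
      · exact hfr c w hc0 hw2 hw (by omega) hck hfp
  · push Not at hfp
    refine Row.ev (ev_of_real hQ (by omega) hs hp2 hZ hd fun g hg =>
      real_of_fixed hQ (by omega) ⟨m, by omega⟩ hp.out hp2 hpF (fun g hg => ?_) g hg)
    obtain ⟨x, hx, hx0⟩ := hfp g hg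
    exact ⟨x, hx0, hx⟩

theorem row_plus {F : Type} [Field F] [Fintype F] {m p : ℕ} [hp : Fact p.Prime] (hm : 4 ≤ m) (hp2 : p ≠ 2)
    (hpF : (p : F) ≠ 0) (hZ : Subgroup.center (POmega F (quadFormPlus m F)) = ⊥)
    (hd : p ∣ Nat.card (POmega F (quadFormPlus m F))) : Row p (POmega F (quadFormPlus m F)) := by
  have hcard : Fintype.card (Fin m ⊕ Fin m) = 2 * m := by
    simp only [Fintype.card_sum, Fintype.card_fin]
    omega
  have hs : ∃ u : Fin m ⊕ Fin m → F, u ≠ 0 ∧ quadPlus m F u = 0 := by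
    refine ⟨Pi.single (Sum.inl ⟨0, by omega⟩) 1, ?_, ?_⟩
    · intro h
      have := congrFun h (Sum.inl ⟨0, by omega⟩)
      rw [Pi.single_eq_same] at this
      exact one_ne_zero this
    · rw [coe_quadPlus, quadFormPlus]
      simp [Pi.single_apply]
  have hq : ¬ p ∣ Fintype.card F := by
    rw [← Nat.card_eq_fintype_card]
    exact not_dvd_card hp.out hpF
  rw [← coe_quadPlus] at hZ hd ⊢
  refine row_even quadPlus_nondegenerate hm hcard hs hp2 hpF hZ hd ?_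
  rintro c w hc hw rfl h5 hck ⟨g, hg, hgf⟩
  rw [coe_quadPlus]
  refine Cfsg.Agent.H984.OnFrameRow.ev_plus hp2 hc hw h5 hq hck ?_
  have h1 := type_plus (by omega) hp.out hp2 hpF hc hck g hg hgf
  rwa [Nat.mul_div_cancel_left _ hc] at h1

theorem row_minus {F : Type} [Field F] [Fintype F] {m p : ℕ} [hp : Fact p.Prime] (hm : 4 ≤ m) (hp2 : p ≠ 2)
    (hpF : (p : F) ≠ 0) {a b : F}
    (hab : ∀ z₁ z₂ : F, z₁ ^ 2 + a * z₁ * z₂ + b * z₂ ^ 2 = 0 → z₁ = 0 ∧ z₂ = 0)
    (hZ : Subgroup.center (POmega F (quadFormMinus (m - 1) F a b)) = ⊥)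
    (hd : p ∣ Nat.card (POmega F (quadFormMinus (m - 1) F a b))) :
    Row p (POmega F (quadFormMinus (m - 1) F a b)) := by
  have hcard : Fintype.card ((Fin (m - 1) ⊕ Fin (m - 1)) ⊕ Fin 2) = 2 * m := by
    simp only [Fintype.card_sum, Fintype.card_fin]
    omega
  have hs : ∃ u : (Fin (m - 1) ⊕ Fin (m - 1)) ⊕ Fin 2 → F, u ≠ 0 ∧ quadMinus (m - 1) F a b u = 0 := by
    refine ⟨Pi.single (Sum.inl (Sum.inl ⟨0, by omega⟩)) 1, ?_, ?_⟩
    · intro h
      have := congrFun h (Sum.inl (Sum.inl ⟨0, by omega⟩))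
      rw [Pi.single_eq_same] at this
      exact one_ne_zero this
    · rw [coe_quadMinus, quadFormMinus]
      simp [Pi.single_apply]
  have hq : ¬ p ∣ Fintype.card F := by
    rw [← Nat.card_eq_fintype_card]
    exact not_dvd_card hp.out hpF
  rw [← coe_quadMinus] at hZ hd ⊢
  refine row_even (quadMinus_nondegenerate hab) hm hcard hs hp2 hpF hZ hd ?_
  rintro c w hc hw rfl h5 hck ⟨g, hg, hgf⟩
  rw [coe_quadMinus]
  refine Cfsg.Agent.H984.OnFrameRow.ev_minus hp2 hc hw h5 hq hck ?_ a b hab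
  have h1 := type_minus (by omega) hab hp.out hp2 hpF hc hck g hg hgf
  rwa [Nat.mul_div_cancel_left _ hc] at h1

/-! ### the rows -/

theorem row_transfer {X Y : Type} [Group X] [Group Y] [Finite X] [IsSimpleGroup X] {p : ℕ} [Fact p.Prime]
    (hna : ¬ IsMulCommutative X) (hd : p ∣ Nat.card X) (e : X ≃* Y)
    (h : Finite Y → Subgroup.center Y = ⊥ → p ∣ Nat.card Y → Row p Y) : Row p X := by
  have hZ := center_of_simple (X := X) inferInstance hna
  have hfin : Finite Y := Finite.of_equiv X e.toEquiv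
  refine Row.congr e.symm (h hfin ?_ (by rwa [← Nat.card_congr e.toEquiv]))
  rw [eq_bot_iff]
  intro z hz
  have h1 : e.symm z ∈ Subgroup.center X := by
    rw [Subgroup.mem_center_iff] at hz ⊢
    intro g
    apply e.injective
    rw [map_mul, map_mul, e.apply_symm_apply]
    exact hz _
  rw [hZ, Subgroup.mem_bot] at h1
  rw [Subgroup.mem_bot]
  exact e.symm.injective (h1.trans (map_one _).symm)

/-- **ON-OPLUS.** -/
theorem oplus {p : ℕ} [Fact p.Prime] (hp2 : p ≠ 2) : RowFor p (fun X _ => ∃ (F : Type) (_ : Field F) (_ : Fintype F)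
    (m : ℕ), (p : F) ≠ 0 ∧ 4 ≤ m ∧ Nonempty (X ≃* POmega F (quadFormPlus m F))) := by
  intro X _ _ hX hna hd hC
  obtain ⟨F, _, _, m, hpF, hm, ⟨e⟩⟩ := hC
  exact row_transfer hna hd e fun _ hZ hd' => row_plus hm hp2 hpF hZ hd'

/-- **ON-OMINUS.** -/
theorem ominus {p : ℕ} [Fact p.Prime] (hp2 : p ≠ 2) : RowFor p (fun X _ => ∃ (F : Type) (_ : Field F) (_ : Fintype F)
    (m : ℕ) (a b : F), (p : F) ≠ 0 ∧ 4 ≤ m ∧
    (∀ z₁ z₂ : F, z₁ ^ 2 + a * z₁ * z₂ + b * z₂ ^ 2 = 0 → z₁ = 0 ∧ z₂ = 0) ∧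
    Nonempty (X ≃* POmega F (quadFormMinus (m - 1) F a b))) := by
  intro X _ _ hX hna hd hC
  obtain ⟨F, _, _, m, a, b, hpF, hm, hab, ⟨e⟩⟩ := hC
  exact row_transfer hna hd e fun _ hZ hd' => row_minus hm hp2 hpF hab hZ hd'

end Cfsg.Agent.H984.OnRows
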