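import Cfsg.Agent.H984.On.Pair
import Cfsg.Agent.H984.On.Poly

/-!
# Centralisers of elements of odd order in orthogonal groups contain elements of spinor sign `-1` (helper984)

`exists_spin` : `q` odd, `g ≠ 1` an isometry with `g ^ p = 1`, `p ∣ (q ^ c) ^ 2 - 1` for an odd number `c`; then there is
an isometry of determinant `1` and spinor sign `-1` commuting with `g`.
-/

set_option autoImplicit false
set_option linter.unusedSectionVars false

namespace Cfsg.Agent.H984.OnSpin

open QuadraticMap Matrix Module Polynomial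
open Cfsg.Agent.ClassicalGeometry.Reflection Cfsg.Agent.ClassicalGeometry.OrthCharTwo
  Cfsg.Agent.ClassicalGeometry.SpinorSign Cfsg.Agent.ClassicalGeometry.OmegaIndex
  Cfsg.Agent.ClassicalGeometry.OrthDickson
open Cfsg.Agent.H507.GmnOrth

variable {ι : Type} [Fintype ι] [DecidableEq ι] {F : Type*} [Field F] {Q : QuadraticForm F (ι → F)}

/-- the isometry as a linear map -/
noncomputable def gl (g : Cfsg.isometryGroup F (⇑Q)) : Module.End F (ι → F) :=
  Matrix.toLin' ((g : GL ι F) : Matrix ι ι F)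

theorem gl_apply (g : Cfsg.isometryGroup F (⇑Q)) (x : ι → F) : gl g x = act g x := Matrix.toLin'_apply _ _

theorem gl_mul_inv (g : Cfsg.isometryGroup F (⇑Q)) : gl g * gl g⁻¹ = 1 := by
  apply LinearMap.ext
  intro x
  rw [Module.End.mul_apply, gl_apply, gl_apply, act_act_inv]
  rfl

theorem gl_inv_mul (g : Cfsg.isometryGroup F (⇑Q)) : gl g⁻¹ * gl g = 1 := by
  apply LinearMap.ext
  intro x
  rw [Module.End.mul_apply, gl_apply, gl_apply, act_inv_act]
  rfl

theorem gl_pow (g : Cfsg.isometryGroup F (⇑Q)) (k : ℕ) : gl g ^ k = gl (g ^ k) := by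
  induction k with
  | zero =>
    apply LinearMap.ext
    intro x
    rw [pow_zero, pow_zero, gl_apply, act_one]
    rfl
  | succ k ih =>
    apply LinearMap.ext
    intro x
    rw [pow_succ, pow_succ, ih, Module.End.mul_apply, gl_apply, gl_apply, gl_apply, act_mul]

/-- `g + g⁻¹` -/
noncomputable def Tl (g : Cfsg.isometryGroup F (⇑Q)) : Module.End F (ι → F) := gl g + gl g⁻¹

/-- `g - g⁻¹` -/
noncomputable def Dl (g : Cfsg.isometryGroup F (⇑Q)) : Module.End F (ι → F) := gl g - gl g⁻¹

theorem Tl_apply (g : Cfsg.isometryGroup F (⇑Q)) (x : ι → F) : Tl g x = act g x + act g⁻¹ x := by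
  rw [Tl, LinearMap.add_apply, gl_apply, gl_apply]

theorem Dl_apply (g : Cfsg.isometryGroup F (⇑Q)) (x : ι → F) : Dl g x = act g x - act g⁻¹ x := by
  rw [Dl, LinearMap.sub_apply, gl_apply, gl_apply]

theorem commute_gl (g : Cfsg.isometryGroup F (⇑Q)) : Commute (gl g) (gl g⁻¹) := by
  rw [commute_iff_eq, gl_mul_inv, gl_inv_mul]

theorem commute_DT (g : Cfsg.isometryGroup F (⇑Q)) : Commute (Dl g) (Tl g) := by
  have h := commute_gl g
  exact ((Commute.refl _).add_right h).sub_left (h.symm.add_right (Commute.refl _))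

theorem commute_gT (g : Cfsg.isometryGroup F (⇑Q)) : Commute (gl g) (Tl g) :=
  (Commute.refl _).add_right (commute_gl g)

theorem commute_aeval {V : Type*} [AddCommGroup V] [Module F V] {S T : Module.End F V} (h : Commute S T) (A : F[X]) :
    Commute S (aeval T A) := by
  induction A using Polynomial.induction_on' with
  | add A B hA hB => rw [map_add]; exact hA.add_right hB
  | monomial k a =>
    rw [Polynomial.aeval_monomial]
    exact (Algebra.commute_algebraMap_right a S).mul_right (h.pow_right k)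

theorem Dl_sq (g : Cfsg.isometryGroup F (⇑Q)) : Dl g * Dl g = aeval (Tl g) (X ^ 2 - 4 : F[X]) := by
  have h1 := gl_mul_inv g
  have h2 := gl_inv_mul g
  have h4 : aeval (Tl g) (4 : F[X]) = 4 := by
    rw [show (4 : F[X]) = C 4 from by rw [map_ofNat], aeval_C, map_ofNat]
  rw [map_sub, map_pow, aeval_X, h4, Dl, Tl, pow_two]
  rw [sub_mul, mul_sub, mul_sub, add_mul, mul_add, mul_add, h1, h2]
  rw [show (4 : Module.End F (ι → F)) = 1 + 1 + 1 + 1 from by norm_num]
  abel

theorem polar_Tl (g : Cfsg.isometryGroup F (⇑Q)) (x y : ι → F) : polar Q (Tl g x) y = polar Q x (Tl g y) := by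
  rw [Tl_apply, Tl_apply, polar_add_left, polar_add_right, polar_act_left, polar_act_left, inv_inv, add_comm]

theorem polar_Dl (g : Cfsg.isometryGroup F (⇑Q)) (x y : ι → F) : polar Q (Dl g x) y = -polar Q x (Dl g y) := by
  rw [Dl_apply, Dl_apply, polar_sub_left, polar_sub_right, polar_act_left, polar_act_left, inv_inv]
  ring

theorem polar_ev (g : Cfsg.isometryGroup F (⇑Q)) (A : F[X]) : ∀ x y : ι → F,
    polar Q (aeval (Tl g) A x) y = polar Q x (aeval (Tl g) A y) := by
  induction A using Polynomial.induction_on' with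
  | add A B hA hB =>
    intro x y
    rw [map_add, LinearMap.add_apply, LinearMap.add_apply, polar_add_left, polar_add_right, hA, hB]
  | monomial k a =>
    intro x y
    have hk : ∀ k : ℕ, ∀ x y : ι → F, polar Q ((Tl g ^ k) x) y = polar Q x ((Tl g ^ k) y) := by
      intro k
      induction k with
      | zero => intro x y; rfl
      | succ k ih =>
        intro x y
        rw [pow_succ, Module.End.mul_apply, ih, polar_Tl, ← Module.End.mul_apply, ← pow_succ', ← pow_succ]
    rw [Polynomial.aeval_monomial, ← Algebra.smul_def, LinearMap.smul_apply, LinearMap.smul_apply, polar_smul_left,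
      polar_smul_right, hk]

/-- `2 g x = T x + δ x` -/
theorem two_act (g : Cfsg.isometryGroup F (⇑Q)) (x : ι → F) : (2 : F) • act g x = Tl g x + Dl g x := by
  rw [Tl_apply, Dl_apply, two_smul]
  abel

theorem two_act_inv (g : Cfsg.isometryGroup F (⇑Q)) (x : ι → F) : (2 : F) • act g⁻¹ x = Tl g x - Dl g x := by
  rw [Tl_apply, Dl_apply, two_smul]
  abel

/-! ### eigenvectors -/

theorem Tl_pow [Fintype F] {p : ℕ} (hp : p.Prime) {c : ℕ} (hq : p ∣ (Fintype.card F ^ c) ^ 2 - 1)
    {g : Cfsg.isometryGroup F (⇑Q)} (hg : g ^ p = 1) : Tl g ^ (Fintype.card F ^ c) = Tl g := by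
  classical
  rcases isEmpty_or_nonempty ι with he | hne
  · apply LinearMap.ext
    intro x
    exact funext fun i => (he.false i).elim
  obtain ⟨r, hr⟩ := CharP.exists F
  have hrp : Fact r.Prime := ⟨CharP.char_is_prime F r⟩
  obtain ⟨k, -, hk⟩ := FiniteField.card F r
  have hM : CharP (Module.End F (ι → F)) r := by
    exact charP_of_injective_algebraMap (FaithfulSMul.algebraMap_injective F _) r
  have h1 := gl_mul_inv g
  have h2 := gl_inv_mul g
  have hGp : gl g ^ p = 1 := by
    rw [gl_pow, hg]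
    apply LinearMap.ext
    intro x
    rw [gl_apply, act_one]
    rfl
  have hG'p : gl g⁻¹ ^ p = 1 := by
    rw [gl_pow, inv_pow, hg, inv_one]
    apply LinearMap.ext
    intro x
    rw [gl_apply, act_one]
    rfl
  have hcard : 1 ≤ Fintype.card F ^ c := Nat.one_le_pow _ _ Fintype.card_pos
  have hqk : Fintype.card F ^ c = r ^ ((k : ℕ) * c) := by rw [hk, pow_mul]
  change (gl g + gl g⁻¹) ^ (Fintype.card F ^ c) = gl g + gl g⁻¹
  rw [hqk, add_pow_expChar_pow_of_commute _ _ (commute_gl g), ← hqk]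
  have hd : p ∣ Fintype.card F ^ c - 1 ∨ p ∣ Fintype.card F ^ c + 1 := by
    have h3 : (Fintype.card F ^ c) ^ 2 - 1 = (Fintype.card F ^ c - 1) * (Fintype.card F ^ c + 1) := by
      rw [mul_comm, ← Nat.sq_sub_sq, one_pow]
    rw [h3] at hq
    exact (Nat.Prime.dvd_mul hp).1 hq
  obtain ⟨N, hN⟩ : ∃ N, N = Fintype.card F ^ c := ⟨_, rfl⟩
  rw [← hN] at hd hcard ⊢
  rcases hd with ⟨d, hd⟩ | ⟨d, hd⟩
  · have h3 : N = p * d + 1 := by omega
    rw [h3, pow_succ, pow_succ, pow_mul, pow_mul, hGp, hG'p, one_pow, one_mul, one_mul]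
  · have h3 : gl g ^ N = gl g⁻¹ := by
      have h4 : gl g ^ (N + 1) = 1 := by rw [hd, pow_mul, hGp, one_pow]
      calc gl g ^ N = gl g ^ N * (gl g * gl g⁻¹) := by rw [h1, mul_one]
        _ = gl g ^ (N + 1) * gl g⁻¹ := by rw [pow_succ, mul_assoc]
        _ = gl g⁻¹ := by rw [h4, one_mul]
    have h5 : gl g⁻¹ ^ N = gl g := by
      have h4 : gl g⁻¹ ^ (N + 1) = 1 := by rw [hd, pow_mul, hG'p, one_pow]
      calc gl g⁻¹ ^ N = gl g⁻¹ ^ N * (gl g⁻¹ * gl g) := by rw [h2, mul_one]
        _ = gl g⁻¹ ^ (N + 1) * gl g := by rw [pow_succ, mul_assoc]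
        _ = gl g := by rw [h4, one_mul]
    rw [h3, h5, add_comm]

/-- nonsingular vectors of irreducible type -/
theorem exists_component (g : Cfsg.isometryGroup F (⇑Q)) {U : Submodule F (ι → F)}
    (hU : ∀ A : F[X], ∀ u ∈ U, aeval (Tl g) A u ∈ U) (n : ℕ) : ∀ R : F[X], R.natDegree = n → Squarefree R →
      ∀ v ∈ U, aeval (Tl g) R v = 0 → Q v ≠ 0 →
      ∃ P : F[X], Irreducible P ∧ P ∣ R ∧ ∃ v ∈ U, aeval (Tl g) P v = 0 ∧ Q v ≠ 0 := by
  induction n using Nat.strong_induction_on with
  | _ n ih =>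
  intro R hn hR v hv hRv hQv
  have hR0 : R ≠ 0 := hR.ne_zero
  by_cases hirr : Irreducible R
  · exact ⟨R, hirr, dvd_refl _, v, hv, hRv, hQv⟩
  have hnu : ¬ IsUnit R := by
    intro hu
    obtain ⟨R', hR'⟩ := hu.exists_left_inv
    apply hQv
    have h1 : v = aeval (Tl g) (R' * R) v := by rw [hR', map_one]; rfl
    rw [h1, map_mul, Module.End.mul_apply, hRv, map_zero, QuadraticMap.map_zero]
  obtain ⟨a, b, hab, ha, hb⟩ : ∃ a b : F[X], R = a * b ∧ ¬ IsUnit a ∧ ¬ IsUnit b := by
    by_contra hcon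
    push Not at hcon
    exact hirr ⟨hnu, fun a b hab => by
      by_contra h
      push Not at h
      exact h.2 (hcon a b hab h.1)⟩
  have ha0 : a ≠ 0 := by rintro rfl; exact hR0 (by rw [hab, zero_mul])
  have hb0 : b ≠ 0 := by rintro rfl; exact hR0 (by rw [hab, mul_zero])
  have hsa : Squarefree a := hR.squarefree_of_dvd (Dvd.intro _ hab.symm)
  have hsb : Squarefree b := hR.squarefree_of_dvd (Dvd.intro_left _ hab.symm)
  have hcop : IsCoprime a b := (squarefree_mul_iff.1 (hab ▸ hR)).1.isCoprime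
  have hdega : 0 < a.natDegree := by
    rw [Nat.pos_iff_ne_zero]
    intro h
    rw [natDegree_eq_zero] at h
    obtain ⟨x, hx⟩ := h
    apply ha
    rw [← hx]
    exact isUnit_C.2 (isUnit_iff_ne_zero.2 (by rintro rfl; exact ha0 (by rw [← hx, map_zero])))
  have hdegb : 0 < b.natDegree := by
    rw [Nat.pos_iff_ne_zero]
    intro h
    rw [natDegree_eq_zero] at h
    obtain ⟨x, hx⟩ := h
    apply hb
    rw [← hx]
    exact isUnit_C.2 (isUnit_iff_ne_zero.2 (by rintro rfl; exact hb0 (by rw [← hx, map_zero])))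
  have hdeg : a.natDegree + b.natDegree = n := by rw [← natDegree_mul ha0 hb0, ← hab, hn]
  obtain ⟨s, t, hst⟩ := hcop
  have hv1 : aeval (Tl g) a (aeval (Tl g) (t * b) v) = 0 := by
    rw [← Module.End.mul_apply, ← map_mul, show a * (t * b) = t * (a * b) by ring, ← hab, map_mul,
      Module.End.mul_apply, hRv, map_zero]
  have hv2 : aeval (Tl g) b (aeval (Tl g) (s * a) v) = 0 := by
    rw [← Module.End.mul_apply, ← map_mul, show b * (s * a) = s * (a * b) by ring, ← hab, map_mul,
      Module.End.mul_apply, hRv, map_zero]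
  have hsum : v = aeval (Tl g) (t * b) v + aeval (Tl g) (s * a) v := by
    rw [← LinearMap.add_apply, ← map_add, add_comm, hst, map_one]
    rfl
  have hpol : polar Q (aeval (Tl g) (t * b) v) (aeval (Tl g) (s * a) v) = 0 := by
    rw [polar_ev, ← Module.End.mul_apply, ← map_mul, show t * b * (s * a) = (t * s) * (a * b) by ring, ← hab,
      map_mul, Module.End.mul_apply, hRv, map_zero, polar_zero_right]
  have hQsum : Q v = Q (aeval (Tl g) (t * b) v) + Q (aeval (Tl g) (s * a) v) := by
    conv_lhs => rw [hsum]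
    rw [map_add', hpol, add_zero]
  by_cases h1 : Q (aeval (Tl g) (t * b) v) = 0
  · have h2 : Q (aeval (Tl g) (s * a) v) ≠ 0 := by
      intro h
      rw [h1, h, add_zero] at hQsum
      exact hQv hQsum
    obtain ⟨P, h3, h4, h5⟩ := ih b.natDegree (by omega) b rfl hsb _ (hU _ v hv) hv2 h2
    exact ⟨P, h3, h4.trans (Dvd.intro_left _ hab.symm), h5⟩
  · obtain ⟨P, h3, h4, h5⟩ := ih a.natDegree (by omega) a rfl hsa _ (hU _ v hv) hv1 h1
    exact ⟨P, h3, h4.trans (Dvd.intro _ hab.symm), h5⟩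

/-- dimension of a cyclic module -/
theorem finrank_range_of_ker {V : Type*} [AddCommGroup V] [Module F V] {P : F[X]} (hP : P ≠ 0)
    (f : F[X] →ₗ[F] V) (h : ∀ A, f A = 0 ↔ P ∣ A) : finrank F (LinearMap.range f) = P.natDegree := by
  have hk : LinearMap.ker f = (Ideal.span {P}).restrictScalars F := by
    ext A
    rw [LinearMap.mem_ker, h, Submodule.restrictScalars_mem, Ideal.mem_span_singleton]
  have e1 : (F[X] ⧸ LinearMap.ker f) ≃ₗ[F] LinearMap.range f := f.quotKerEquivRange
  have e2 : (F[X] ⧸ LinearMap.ker f) ≃ₗ[F] (F[X] ⧸ (Ideal.span {P}).restrictScalars F) :=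
    Submodule.quotEquivOfEq _ _ hk
  have e3 : (F[X] ⧸ (Ideal.span {P}).restrictScalars F) ≃ₗ[F] AdjoinRoot P :=
    Submodule.Quotient.restrictScalarsEquiv F (Ideal.span {P})
  rw [← e1.finrank_eq, e2.finrank_eq, e3.finrank_eq, (AdjoinRoot.powerBasis hP).finrank, AdjoinRoot.powerBasis_dim]

/-! ### the relations -/

/-- two families of vectors: `h` is `-1` on the first and `1` on the second -/
theorem inv_of_rel (h2 : (2 : F) ≠ 0) {g h : Cfsg.isometryGroup F (⇑Q)} {D : F} {Y : F[X]} {a s : F[X] →ₗ[F] (ι → F)}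
    (hTa : ∀ A, Tl g (a A) = a (X * A)) (hTs : ∀ A, Tl g (s A) = s (X * A))
    (hDa : ∀ A, Dl g (a A) = s (Y * A)) (hDs : ∀ A, Dl g (s A) = D • a (Y * A))
    (ha : ∀ A, act h (a A) = -a A) (hs : ∀ A, act h (s A) = s A) (A A' : F[X]) :
    act h (act g (a A + s A')) = act g⁻¹ (act h (a A + s A')) := by
  have h3 : (2 : F) • act h (act g (a A + s A')) = (2 : F) • act g⁻¹ (act h (a A + s A')) := by
    rw [← act_smul, two_act, two_act_inv, map_add, map_add, hTa, hTs, hDa, hDs, act_add, act_add, act_add, act_add,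
      act_smul, ha, hs, hs, ha, ha, hs, map_add, map_add, map_neg, map_neg, hTa, hTs, hDa, hDs]
    simp only [smul_neg]
    abel
  exact smul_right_injective _ h2 h3

/-- membership -/
theorem mem_of_rel {h : Cfsg.isometryGroup F (⇑Q)} {a s : F[X] →ₗ[F] (ι → F)}
    (ha : ∀ A, act h (a A) = -a A) (hs : ∀ A, act h (s A) = s A) (A A' : F[X]) :
    act h (a A + s A') = a (-A) + s A' := by
  rw [act_add, ha, hs, map_neg]

/-- **Elements of spinor sign `-1`.** -/
theorem exists_spin [Fintype F] (h2 : (2 : F) ≠ 0) {p : ℕ} (hp : p.Prime) (hp2 : p ≠ 2) (hpF : (p : F) ≠ 0) {c : ℕ}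
    (hc : Odd c) (hq : p ∣ (Fintype.card F ^ c) ^ 2 - 1) (hQ : (polarBilin Q).Nondegenerate)
    {g : Cfsg.isometryGroup F (⇑Q)} (hg : g ^ p = 1) (hg1 : g ≠ 1) :
    ∃ x : Cfsg.isometryGroup F (⇑Q), ((x : GL ι F) : Matrix ι ι F).det = 1 ∧ spinorSign (⇑Q) (1 : F) x = -1 ∧
      x * g = g * x := by
  classical
  -- the moved vectors
  have hU : ∀ u ∈ mov g, act g u ∈ mov g := by
    intro u hu y hy
    have h1 : polar Q (act g y) (act g u) = polar Q y u := polar_act g y u
    rw [hy] at h1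
    rw [h1]
    exact hu y hy
  have hU' := act_inv_mem hp.pos hg hU
  have hfix : ∀ u ∈ mov g, act g u = u → u = 0 := by
    intro u hu hgu
    apply nondeg_left Q hQ
    intro y
    obtain ⟨a, b, rfl, ha, hb⟩ := exists_decomp hpF hg y
    rw [polar_add_right, hb u hgu, polar_comm, hu a ha, add_zero]
  have hnd : ∀ x ∈ mov g, (∀ y ∈ mov g, polar Q x y = 0) → x = 0 := by
    intro x hx hxy
    apply nondeg_left Q hQ
    intro y
    obtain ⟨a, b, rfl, ha, hb⟩ := exists_decomp hpF hg y
    rw [polar_add_right, hxy b hb, polar_comm, hx a ha, add_zero]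
  have hne : mov g ≠ ⊥ := by
    intro h
    apply hg1
    apply act_ext
    intro x
    obtain ⟨a, b, rfl, ha, hb⟩ := exists_decomp hpF hg x
    have h1 : b ∈ mov g := hb
    rw [h, Submodule.mem_bot] at h1
    rw [h1, add_zero, ha, act_one]
  have hTU : ∀ u ∈ mov g, Tl g u ∈ mov g := by
    intro u hu
    rw [Tl_apply]
    exact (mov g).add_mem (hU u hu) (hU' u hu)
  have hevU : ∀ A : F[X], ∀ u ∈ mov g, aeval (Tl g) A u ∈ mov g := by
    intro A
    induction A using Polynomial.induction_on' with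
    | add A B hA hB =>
      intro u hu
      rw [map_add, LinearMap.add_apply]
      exact (mov g).add_mem (hA u hu) (hB u hu)
    | monomial k a =>
      intro u hu
      rw [Polynomial.aeval_monomial, ← Algebra.smul_def, LinearMap.smul_apply]
      refine (mov g).smul_mem _ ?_
      induction k with
      | zero => exact hu
      | succ k ih => rw [pow_succ', Module.End.mul_apply]; exact hTU _ ih
  obtain ⟨v0, hv0, hQv0⟩ := Cfsg.Agent.H175.OmegaAdjust.exists_nonsing Q _ hne hnd
  -- the irreducible component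
  obtain ⟨r, hr⟩ := CharP.exists F
  have hrp : Fact r.Prime := ⟨CharP.char_is_prime F r⟩
  obtain ⟨k, -, hk⟩ := FiniteField.card F r
  have hcpos := hc.pos
  have hsq : Squarefree (X ^ (Fintype.card F ^ c) - X : F[X]) := by
    apply Separable.squarefree
    have h3 : r ∣ Fintype.card F ^ c := by
      rw [hk, ← pow_mul]
      exact dvd_pow_self r (Nat.mul_ne_zero k.pos.ne' (by omega))
    have := galois_poly_separable (K := F) r (Fintype.card F ^ c) h3
    exact this
  obtain ⟨P, hP, hPR, v, hvU, hPv, hQv⟩ := exists_component g hevU _ _ rfl hsq v0 hv0 (by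
    rw [map_sub, map_pow, aeval_X, Tl_pow hp hq hg, sub_self]
    rfl) hQv0
  have hPdeg : P.natDegree ∣ c := by
    apply hP.natDegree_dvd_of_dvd_X_pow_card_pow_sub_X
    rw [Nat.card_eq_fintype_card]
    exact hPR
  have hPodd : Odd P.natDegree := Odd.of_dvd_nat hc hPdeg
  have h4 : ¬ P ∣ X ^ 2 - 4 := by
    rintro ⟨R, hR⟩
    have h5 : Dl g (Dl g v) = 0 := by
      rw [← Module.End.mul_apply, Dl_sq, hR, mul_comm, map_mul, Module.End.mul_apply, hPv, map_zero]
    have hw : Dl g v ∈ mov g := by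
      rw [Dl_apply]
      exact (mov g).sub_mem (hU v hvU) (hU' v hvU)
    have key : ∀ w ∈ mov g, Dl g w = 0 → w = 0 := by
      intro w hw h
      apply hfix w hw
      apply fix_of_sq hp hp2 hg
      rw [Dl_apply, sub_eq_zero] at h
      rw [h, act_act_inv]
    have h6 := key v hvU (key _ hw h5)
    apply hQv
    rw [h6, QuadraticMap.map_zero]
  obtain ⟨D, Z, Y, hD, hDZ, hZY⟩ := OnPoly.exists_poly h2 hP hPodd h4
  obtain ⟨n, hn⟩ := FiniteField.exists_nonsquare (OnPoly.ringChar_ne_two h2)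
  have hn0 : n ≠ 0 := by
    rintro rfl
    exact hn IsSquare.zero
  obtain ⟨α, β, hαβ⟩ := OnPoly.exists_norm h2 hD n
  -- the operators
  obtain ⟨S, hSdef⟩ : ∃ S : Module.End F (ι → F), S = Dl g * aeval (Tl g) Z := ⟨_, rfl⟩
  have hcD : ∀ A : F[X], Commute (Dl g) (aeval (Tl g) A) := fun A => commute_aeval (commute_DT g) A
  have hcA : ∀ A B : F[X], Commute (aeval (Tl g) A) (aeval (Tl g) B) := fun A B => by
    rw [commute_iff_eq, ← map_mul, ← map_mul, mul_comm]
  have hSA : ∀ A : F[X], Commute S (aeval (Tl g) A) := fun A => by rw [hSdef]; exact (hcD A).mul_left (hcA Z A)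
  have hSD : Commute S (Dl g) := by rw [hSdef]; exact (Commute.refl _).mul_left (hcD Z).symm
  have hmul : ∀ (A B : F[X]) (x : ι → F), aeval (Tl g) A (aeval (Tl g) B x) = aeval (Tl g) (A * B) x := by
    intro A B x
    rw [← Module.End.mul_apply, ← map_mul]
  have hSA' : ∀ (A : F[X]) (x : ι → F), S (aeval (Tl g) A x) = aeval (Tl g) A (S x) := by
    intro A x
    rw [← Module.End.mul_apply, (hSA A).eq, Module.End.mul_apply]
  have hSD' : ∀ x : ι → F, S (Dl g x) = Dl g (S x) := by
    intro x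
    rw [← Module.End.mul_apply, hSD.eq, Module.End.mul_apply]
  -- vectors killed by `P`
  have hdvd : ∀ (A : F[X]) (x : ι → F), aeval (Tl g) P x = 0 → P ∣ A → aeval (Tl g) A x = 0 := by
    rintro A x hx ⟨R, rfl⟩
    rw [mul_comm, map_mul, Module.End.mul_apply, hx, map_zero]
  have hSS : ∀ x, aeval (Tl g) P x = 0 → S (S x) = D • x := by
    intro x hx
    have h5 : S (S x) = aeval (Tl g) ((X ^ 2 - 4) * Z ^ 2) x := by
      rw [← Module.End.mul_apply, map_mul, ← Dl_sq, map_pow]
      have h6 : S * S = Dl g * Dl g * (aeval (Tl g) Z) ^ 2 := by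
        rw [hSdef, mul_assoc, ← mul_assoc (aeval (Tl g) Z), ← (hcD Z).eq, pow_two]
        simp only [mul_assoc]
      rw [h6]
    have h7 := hdvd _ x hx hDZ
    rw [map_sub, LinearMap.sub_apply, sub_eq_zero] at h7
    rw [h5, h7, aeval_C]
    rfl
  have hDS : ∀ x, aeval (Tl g) P x = 0 → Dl g x = S (aeval (Tl g) Y x) := by
    intro x hx
    have h7 := hdvd _ x hx hZY
    rw [map_sub, LinearMap.sub_apply, sub_eq_zero, map_one, map_mul, Module.End.mul_apply] at h7
    rw [hSdef, Module.End.mul_apply, h7]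
    rfl
  have hSskew : ∀ x y, polar Q (S x) y = -polar Q x (S y) := by
    intro x y
    rw [hSdef, Module.End.mul_apply, polar_Dl, polar_ev, ← Module.End.mul_apply, ← (hcD Z).eq]
  have hker : ∀ A : F[X], aeval (Tl g) P (aeval (Tl g) A v) = 0 := by
    intro A
    rw [← Module.End.mul_apply, ← map_mul, mul_comm, map_mul, Module.End.mul_apply, hPv, map_zero]
  have hkerS : ∀ x, aeval (Tl g) P x = 0 → aeval (Tl g) P (S x) = 0 := by
    intro x hx
    rw [← hSA', hx, map_zero]
  -- `φ = α + β S`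
  have hrel : ∀ (α β : F), α ^ 2 - D * β ^ 2 ≠ 0 → ∀ (h : Cfsg.isometryGroup F (⇑Q)) (k : ℕ) (L : Submodule F (ι → F)),
      (∀ x, x ∈ L ↔ ∃ A : F[X], aeval (Tl g) A v = x) →
      Neg (L.map (α • (1 : Module.End F (ι → F)) + β • S)) k h →
      (∀ A A' : F[X], ∃ B B' : F[X], act h (aeval (Tl g) A v + S (aeval (Tl g) A' v)) =
        aeval (Tl g) B v + S (aeval (Tl g) B' v)) ∧
      (∀ A A' : F[X], act h (act g (aeval (Tl g) A v + S (aeval (Tl g) A' v))) =
        act g⁻¹ (act h (aeval (Tl g) A v + S (aeval (Tl g) A' v)))) := by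
    intro α β hαβ h k L hL H
    obtain ⟨φ, hφdef⟩ : ∃ φ : Module.End F (ι → F), φ = α • 1 + β • S := ⟨_, rfl⟩
    rw [← hφdef] at H
    have hφ : ∀ x, φ x = α • x + β • S x := fun x => by rw [hφdef]; rfl
    have hφA : ∀ (A : F[X]) (x : ι → F), φ (aeval (Tl g) A x) = aeval (Tl g) A (φ x) := by
      intro A x
      rw [hφ, hφ, map_add, map_smul, map_smul, hSA']
    have hφS : ∀ x, φ (S x) = S (φ x) := by
      intro x
      rw [hφ, hφ, map_add, map_smul, map_smul]
    have hφker : ∀ x, aeval (Tl g) P x = 0 → aeval (Tl g) P (φ x) = 0 := by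
      intro x hx
      rw [← hφA, hx, map_zero]
    let a : F[X] →ₗ[F] (ι → F) :=
      { toFun := fun A => φ (aeval (Tl g) A v)
        map_add' := fun A B => by rw [map_add, LinearMap.add_apply, map_add]
        map_smul' := fun t A => by rw [map_smul, LinearMap.smul_apply, map_smul]; rfl }
    let s : F[X] →ₗ[F] (ι → F) :=
      { toFun := fun A => S (φ (aeval (Tl g) A v))
        map_add' := fun A B => by rw [map_add, LinearMap.add_apply, map_add, map_add]
        map_smul' := fun t A => by rw [map_smul, LinearMap.smul_apply, map_smul, map_smul]; rfl }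
    have ha' : ∀ A, a A = φ (aeval (Tl g) A v) := fun A => rfl
    have hs' : ∀ A, s A = S (φ (aeval (Tl g) A v)) := fun A => rfl
    have hTX : ∀ x, Tl g x = aeval (Tl g) (X : F[X]) x := fun x => by rw [aeval_X]
    have hTa : ∀ A, Tl g (a A) = a (X * A) := by
      intro A
      rw [ha', ha', hTX, ← hφA, hmul]
    have hTs : ∀ A, Tl g (s A) = s (X * A) := by
      intro A
      rw [hs', hs', hTX, ← hSA', ← hφA, hmul]
    have hDa : ∀ A, Dl g (a A) = s (Y * A) := by
      intro A
      rw [ha', hDS _ (hφker _ (hker A)), hs', ← hφA, hmul]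
    have hDs : ∀ A, Dl g (s A) = D • a (Y * A) := by
      intro A
      have h6 := hDa A
      rw [ha'] at h6
      rw [hs', ← hSD', h6, hs', hSS _ (hφker _ (hker _)), ha']
    have horth : ∀ A B : F[X], polar Q (a A) (s B) = 0 := by
      intro A B
      -- the form is symmetric under exchanging the polynomials
      have h5 : polar Q (a A) (s B) = polar Q (φ v) (S (φ (aeval (Tl g) (A * B) v))) := by
        rw [ha', hs', hφA, polar_ev, ← hSA', ← hφA A, hmul]
      have h6 : polar Q (φ v) (S (φ (aeval (Tl g) (A * B) v))) = -polar Q (φ v) (S (φ (aeval (Tl g) (A * B) v))) := by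
        have h7 : polar Q (S (φ v)) (φ (aeval (Tl g) (A * B) v)) = -polar Q (φ v) (S (φ (aeval (Tl g) (A * B) v))) :=
          hSskew _ _
        rw [← h7, hφA, hSA', ← polar_ev, polar_comm]
      rw [h5]
      have h8 : (2 : F) * polar Q (φ v) (S (φ (aeval (Tl g) (A * B) v))) = 0 := by linear_combination h6
      exact (mul_eq_zero.1 h8).resolve_left h2
    have haL : ∀ A, a A ∈ L.map φ := fun A => Submodule.mem_map_of_mem ((hL _).2 ⟨A, rfl⟩)
    have ha : ∀ A, act h (a A) = -a A := fun A => H.neg _ (haL A)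
    have hs : ∀ A, act h (s A) = s A := by
      intro A
      apply H.one
      rintro _ ⟨x, hx, rfl⟩
      obtain ⟨B, rfl⟩ := (hL x).1 hx
      exact horth B A
    -- rewriting
    obtain ⟨n, hn⟩ : ∃ n, n = α ^ 2 - D * β ^ 2 := ⟨_, rfl⟩
    rw [← hn] at hαβ
    have hφφ : ∀ x, aeval (Tl g) P x = 0 → x = φ ((n⁻¹ * α) • x) + S (φ ((-(n⁻¹ * β)) • x)) := by
      intro x hx
      rw [hφ, hφ, map_add, map_smul, map_smul, map_smul, map_smul, map_smul, hSS x hx]
      simp only [smul_smul]
      have e : x = (n⁻¹ * n) • x := by rw [inv_mul_cancel₀ hαβ, one_smul]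
      conv_lhs => rw [e]
      rw [hn]
      module
    have hrw1 : ∀ A : F[X], aeval (Tl g) A v = a ((n⁻¹ * α) • A) + s ((-(n⁻¹ * β)) • A) := by
      intro A
      rw [ha', hs', map_smul, map_smul, LinearMap.smul_apply, LinearMap.smul_apply]
      exact hφφ _ (hker A)
    have hrw2 : ∀ A : F[X], S (aeval (Tl g) A v) = a ((-(n⁻¹ * β) * D) • A) + s ((n⁻¹ * α) • A) := by
      intro A
      have h5 := congrArg S (hφφ _ (hker A))
      rw [map_add, hSS _ (hφker _ (by rw [map_smul, hker, smul_zero]))] at h5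
      rw [h5, ha', hs']
      simp only [map_smul, LinearMap.smul_apply]
      module
    have hrw : ∀ A A' : F[X], ∃ B B' : F[X], aeval (Tl g) A v + S (aeval (Tl g) A' v) = a B + s B' := by
      intro A A'
      refine ⟨(n⁻¹ * α) • A + (-(n⁻¹ * β) * D) • A', (-(n⁻¹ * β)) • A + (n⁻¹ * α) • A', ?_⟩
      rw [hrw1 A, hrw2 A', map_add, map_add]
      abel
    have hback : ∀ B B' : F[X], ∃ A A' : F[X], a B + s B' = aeval (Tl g) A v + S (aeval (Tl g) A' v) := by
      intro B B'
      refine ⟨α • B + (β * D) • B', β • B + α • B', ?_⟩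
      rw [ha', hs', hφ, hφ, map_add, map_smul, map_smul, hSS _ (hker _)]
      simp only [map_add, map_smul, LinearMap.add_apply, LinearMap.smul_apply]
      module
    constructor
    · intro A A'
      obtain ⟨B, B', hB⟩ := hrw A A'
      rw [hB, mem_of_rel ha hs]
      exact hback _ _
    · intro A A'
      obtain ⟨B, B', hB⟩ := hrw A A'
      rw [hB]
      exact inv_of_rel h2 hTa hTs hDa hDs ha hs B B'
  -- the subspace
  let f : F[X] →ₗ[F] (ι → F) :=
    { toFun := fun A => aeval (Tl g) A v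
      map_add' := fun A B => by rw [map_add, LinearMap.add_apply]
      map_smul' := fun t A => by rw [map_smul, LinearMap.smul_apply]; rfl }
  have hf' : ∀ A, f A = aeval (Tl g) A v := fun A => rfl
  obtain ⟨L, hLdef⟩ : ∃ L, L = LinearMap.range f := ⟨_, rfl⟩
  have hL : ∀ x, x ∈ L ↔ ∃ A : F[X], aeval (Tl g) A v = x := fun x => by rw [hLdef]; exact Iff.rfl
  have hv00 : v ≠ 0 := by
    rintro rfl
    exact hQv (QuadraticMap.map_zero _)
  have hinv : ∀ A : F[X], ¬ P ∣ A → ∃ B : F[X], aeval (Tl g) (B * A) v = v := by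
    intro A hA
    obtain ⟨b, a, hab⟩ := (hP.coprime_iff_not_dvd).2 hA
    refine ⟨a, ?_⟩
    have h5 : a * A = 1 - b * P := by rw [← hab]; ring
    rw [h5, map_sub, LinearMap.sub_apply, map_one, map_mul, Module.End.mul_apply, hPv, map_zero, sub_zero]
    rfl
  have hfker : ∀ A, f A = 0 ↔ P ∣ A := by
    intro A
    constructor
    · intro h
      by_contra hA
      obtain ⟨B, hB⟩ := hinv A hA
      rw [map_mul, Module.End.mul_apply, ← hf', h, map_zero] at hB
      exact hv00 hB.symm
    · intro h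
      exact hdvd A v hPv h
  have hfin : finrank F L = P.natDegree := by rw [hLdef]; exact finrank_range_of_ker hP.ne_zero f hfker
  have hLnd : ∀ x ∈ L, (∀ y ∈ L, polar Q x y = 0) → x = 0 := by
    intro x hx hxy
    obtain ⟨A, rfl⟩ := (hL x).1 hx
    by_cases hA : P ∣ A
    · exact hdvd A v hPv hA
    exfalso
    obtain ⟨B, hB⟩ := hinv A hA
    have h5 := hxy _ ((hL _).2 ⟨B, rfl⟩)
    rw [← polar_ev, hmul, hB, polar_self'] at h5
    exact mul_ne_zero h2 hQv h5
  have hpS : ∀ x, aeval (Tl g) P x = 0 → polar Q (S x) (S x) = -D * polar Q x x := by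
    intro x hx
    rw [hSskew, hSS x hx, polar_smul_right, smul_eq_mul]
    ring
  have hpx : ∀ x, polar Q x (S x) = 0 := by
    intro x
    have h5 := hSskew x x
    rw [polar_comm] at h5
    have h6 : (2 : F) * polar Q x (S x) = 0 := by linear_combination h5
    exact (mul_eq_zero.1 h6).resolve_left h2
  have hQφ : ∀ (α β : F) (x : ι → F), aeval (Tl g) P x = 0 →
      Q ((α • (1 : Module.End F (ι → F)) + β • S) x) = (α ^ 2 - D * β ^ 2) * Q x := by
    intro α β x hx
    have h5 : (2 : F) * Q ((α • (1 : Module.End F (ι → F)) + β • S) x) = 2 * ((α ^ 2 - D * β ^ 2) * Q x) := by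
      rw [← polar_self']
      change polar Q (α • x + β • S x) (α • x + β • S x) = _
      rw [polar_add_left, polar_add_right, polar_add_right, polar_smul_left, polar_smul_right, polar_smul_left,
        polar_smul_right, polar_smul_left, polar_smul_right, polar_smul_left, polar_smul_right, hpS x hx, hpx,
        polar_comm (⇑Q) (S x) x, hpx, polar_self']
      simp only [smul_eq_mul]
      ring
    exact mul_left_cancel₀ h2 h5
  have hQS : ∀ x, aeval (Tl g) P x = 0 → Q (S x) = -D * Q x := by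
    intro x hx
    have h5 : (2 : F) * Q (S x) = 2 * (-D * Q x) := by
      rw [← polar_self', hpS x hx, polar_self']
      ring
    exact mul_left_cancel₀ h2 h5
  have hLP : ∀ x ∈ L, aeval (Tl g) P x = 0 := by
    intro x hx
    obtain ⟨A, rfl⟩ := (hL x).1 hx
    exact hker A
  obtain ⟨h, h', H, H', hs⟩ := exists_pair h2 hn0 (α • (1 : Module.End F (ι → F)) + β • S) _ L hfin hLnd
    (fun x hx => by rw [hQφ α β x (hLP x hx), hαβ])
  obtain ⟨-, hS', -, HS', -⟩ := exists_pair h2 (neg_ne_zero.2 hD) S _ L hfin hLnd (fun x hx => hQS x (hLP x hx))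
  have H1 : Neg (L.map ((1 : F) • (1 : Module.End F (ι → F)) + (0 : F) • S)) P.natDegree h := by
    have e : (1 : F) • (1 : Module.End F (ι → F)) + (0 : F) • S = LinearMap.id := by
      rw [one_smul, zero_smul, add_zero]
      rfl
    rw [e, Submodule.map_id]
    exact H
  obtain ⟨hm1, hc1⟩ := hrel 1 0 (by simp) h _ L hL H1
  obtain ⟨hm2, hc2⟩ := hrel α β (by rw [hαβ]; exact hn0) h' _ L hL H'
  -- `g⁻¹` preserves the subspace
  have hTX : ∀ x, Tl g x = aeval (Tl g) (X : F[X]) x := fun x => by rw [aeval_X]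
  have hginv : ∀ A A' : F[X], ∃ B B' : F[X], act g⁻¹ (aeval (Tl g) A v + S (aeval (Tl g) A' v)) =
      aeval (Tl g) B v + S (aeval (Tl g) B' v) := by
    intro A A'
    refine ⟨(2⁻¹ : F) • (X * A - C D * (Y * A')), (2⁻¹ : F) • (X * A' - Y * A), ?_⟩
    have e1 : Tl g (aeval (Tl g) A v) = aeval (Tl g) (X * A) v := by
      rw [hTX, hmul]
    have e2 : Tl g (S (aeval (Tl g) A' v)) = S (aeval (Tl g) (X * A') v) := by
      rw [hTX, ← hSA', hmul]
    have e3 : Dl g (aeval (Tl g) A v) = S (aeval (Tl g) (Y * A) v) := by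
      rw [hDS _ (hker A), hmul]
    have e4 : Dl g (S (aeval (Tl g) A' v)) = D • aeval (Tl g) (Y * A') v := by
      rw [← hSD', hDS _ (hker A'), hmul, hSS _ (hker _)]
    have h5 : (2 : F) • act g⁻¹ (aeval (Tl g) A v + S (aeval (Tl g) A' v)) =
        (2 : F) • (aeval (Tl g) ((2⁻¹ : F) • (X * A - C D * (Y * A'))) v +
          S (aeval (Tl g) ((2⁻¹ : F) • (X * A' - Y * A)) v)) := by
      have e5 : aeval (Tl g) (C D * (Y * A')) v = D • aeval (Tl g) (Y * A') v := by
        rw [map_mul, Module.End.mul_apply, aeval_C]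
        rfl
      rw [two_act_inv, map_add, map_add, e1, e2, e3, e4, map_smul, map_smul, LinearMap.smul_apply,
        LinearMap.smul_apply, map_smul, ← smul_add, smul_smul, mul_inv_cancel₀ h2, one_smul, map_sub, map_sub,
        LinearMap.sub_apply, LinearMap.sub_apply, map_sub, e5]
      abel
    exact smul_right_injective _ h2 h5
  -- orthogonality
  have hLS : ∀ x ∈ L, ∀ y ∈ L, polar Q x (S y) = 0 := by
    intro x hx y hy
    obtain ⟨A, rfl⟩ := (hL x).1 hx
    obtain ⟨B, rfl⟩ := (hL y).1 hy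
    have h5 : polar Q (aeval (Tl g) A v) (S (aeval (Tl g) B v)) = polar Q v (S (aeval (Tl g) (A * B) v)) := by
      rw [polar_ev, ← hSA', hmul]
    have h6 : polar Q v (S (aeval (Tl g) (A * B) v)) = -polar Q v (S (aeval (Tl g) (A * B) v)) := by
      have h7 : polar Q (S v) (aeval (Tl g) (A * B) v) = -polar Q v (S (aeval (Tl g) (A * B) v)) := hSskew _ _
      rw [← h7, hSA', ← polar_ev, polar_comm]
    rw [h5]
    have h8 : (2 : F) * polar Q v (S (aeval (Tl g) (A * B) v)) = 0 := by linear_combination h6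
    exact (mul_eq_zero.1 h8).resolve_left h2
  have hperp : ∀ (L' : Submodule F (ι → F)) (k : ℕ) (h : Cfsg.isometryGroup F (⇑Q)), Neg L' k h → ∀ y : ι → F,
      ∀ x ∈ L', polar Q x (y + act h y) = 0 := by
    intro L' k h H y x hx
    have h5 : polar Q x (act h y) = -polar Q x y := by
      have h6 := polar_act h x y
      rw [H.neg x hx, polar_neg_left] at h6
      rw [← h6, neg_neg]
    rw [polar_add_right, h5, add_neg_cancel]
  have hdec : ∀ y : ι → F, ∃ (A A' : F[X]) (w : ι → F), y = (aeval (Tl g) A v + S (aeval (Tl g) A' v)) + w ∧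
      (∀ x ∈ L, polar Q x w = 0) ∧ (∀ x ∈ L, polar Q (S x) w = 0) := by
    intro y
    obtain ⟨A, hA⟩ := (hL _).1 (L.smul_mem (2⁻¹ : F) (H.sub y))
    obtain ⟨z, hz⟩ : ∃ z, z = (2⁻¹ : F) • (y + act h y) := ⟨_, rfl⟩
    obtain ⟨l, hl, hl'⟩ := (L.map S).smul_mem (2⁻¹ : F) (HS'.sub z)
    obtain ⟨A', rfl⟩ := (hL l).1 hl
    have e0 : ∀ u w : ι → F, (2⁻¹ : F) • (u - w) + (2⁻¹ : F) • (u + w) = u := by
      intro u w
      rw [← smul_add, show u - w + (u + w) = (2 : F) • u by rw [two_smul]; abel, smul_smul, inv_mul_cancel₀ h2, one_smul]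
    refine ⟨A, A', (2⁻¹ : F) • (z + act hS' z), ?_, ?_, ?_⟩
    · rw [hA, hl', add_assoc, e0, hz, e0]
    · intro x hx
      have h5 : (2⁻¹ : F) • (z + act hS' z) = z - S (aeval (Tl g) A' v) := by
        rw [hl', eq_sub_iff_add_eq, add_comm, e0]
      rw [h5, polar_sub_right, hLS x hx _ hl, sub_zero, hz, polar_smul_right, hperp L _ h H y x hx, smul_zero]
    · intro x hx
      rw [polar_smul_right, hperp _ _ _ HS' z (S x) (Submodule.mem_map_of_mem hx), smul_zero]
  -- the product
  refine ⟨h * h', ?_, ?_, ?_⟩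
  · rw [coe_mul_det, H.det, H'.det, hPodd.neg_one_pow]
    norm_num
  · rw [map_mul, hs hn, hPodd.neg_one_pow, mul_comm, mul_assoc, Int.units_mul_self, mul_one]
  · apply act_ext
    intro y
    obtain ⟨A, A', w, rfl, hw1, hw2⟩ := hdec y
    obtain ⟨m, hm⟩ : ∃ m, m = aeval (Tl g) A v + S (aeval (Tl g) A' v) := ⟨_, rfl⟩
    -- the orthogonal part
    have hgen : ∀ w : ι → F, (∀ x ∈ L, polar Q x w = 0) → (∀ x ∈ L, polar Q (S x) w = 0) →
        act h w = w ∧ act h' w = w := by
      intro w hw1 hw2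
      refine ⟨H.one w hw1, H'.one w ?_⟩
      rintro _ ⟨x, hx, rfl⟩
      change polar Q (α • x + β • S x) w = 0
      rw [polar_add_left, polar_smul_left, polar_smul_left, hw1 x hx, hw2 x hx, smul_zero, smul_zero, add_zero]
    have hgw : ∀ A A' : F[X], polar Q (aeval (Tl g) A v + S (aeval (Tl g) A' v)) (act g w) = 0 := by
      intro A A'
      obtain ⟨B, B', hB⟩ := hginv A A'
      have h5 := polar_act_left g⁻¹ (aeval (Tl g) A v + S (aeval (Tl g) A' v)) w
      rw [inv_inv] at h5
      rw [← h5, hB, polar_add_left, hw1 _ ((hL _).2 ⟨B, rfl⟩), hw2 _ ((hL _).2 ⟨B', rfl⟩), add_zero]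
    obtain ⟨w1, w2⟩ := hgen w hw1 hw2
    obtain ⟨w3, w4⟩ := hgen (act g w) (by
      intro x hx
      obtain ⟨A, rfl⟩ := (hL x).1 hx
      have h5 := hgw A 0
      rwa [map_zero, LinearMap.zero_apply, map_zero, add_zero] at h5) (by
      intro x hx
      obtain ⟨A, rfl⟩ := (hL x).1 hx
      have h5 := hgw 0 A
      rwa [map_zero, LinearMap.zero_apply, zero_add] at h5)
    -- the main part
    have hmain : act h (act h' (act g m)) = act g (act h (act h' m)) := by
      rw [hm, hc2]
      obtain ⟨B, B', hB⟩ := hm2 A A'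
      rw [hB]
      obtain ⟨E, E', hE⟩ := hginv B B'
      have h5 := hc1 E E'
      rw [← hE, act_act_inv] at h5
      rw [h5, act_act_inv]
    rw [← hm]
    simp only [act_mul, act_add]
    rw [hmain, w4, w3, w2, w1]

end Cfsg.Agent.H984.OnSpin
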